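import Mathlib

set_option autoImplicit false

/-!
# Facts about groups isomorphic to `A₅` (by `decide` in `Perm (Fin 5)` and transfer)
-/

namespace Cfsg.Agent.H47.J2A5

open Equiv

set_option maxRecDepth 1000000 in
theorem p1 : (Finset.univ.filter
    (fun x : Perm (Fin 5) => Perm.sign x = 1 ∧ (x ≠ 1 ∧ x * x = 1))).card = 15 := by
  decide +kernel

set_option maxRecDepth 1000000 in
theorem p2 : ∀ x : Perm (Fin 5), Perm.sign x = 1 → x ≠ 1 → x * x = 1 →
    (Finset.univ.filter (fun c : Perm (Fin 5) => Perm.sign c = 1 ∧ c * x = x * c)).card = 4 ∧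
    ∀ c : Perm (Fin 5), Perm.sign c = 1 → c * x = x * c → c * c = 1 := by
  decide +kernel

set_option maxRecDepth 1000000 in
theorem p3 : ∀ x : Perm (Fin 5), Perm.sign x = 1 → x ≠ 1 → x * x = 1 →
    (Finset.univ.filter (fun b : Perm (Fin 5) => Perm.sign b = 1 ∧ (b * b = 1 ∧
      (x * b = 1 ∨ (x * b) * (x * b) ≠ 1)))).card = 13 := by
  decide +kernel

set_option maxRecDepth 1000000 in
theorem p4 : ∀ g : Perm (Fin 5), Perm.sign g = 1 → g ^ 2 = 1 ∨ g ^ 3 = 1 ∨ g ^ 5 = 1 := by
  decide +kernel

variable {A : Type*} [Group A]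

/-- the underlying permutation -/
def phi (e : A ≃* alternatingGroup (Fin 5)) : A →* Perm (Fin 5) :=
  (alternatingGroup (Fin 5)).subtype.comp e.toMonoidHom

theorem phi_injective (e : A ≃* alternatingGroup (Fin 5)) : Function.Injective (phi e) := by
  intro a b h
  apply e.injective
  exact Subtype.ext h

theorem phi_sign (e : A ≃* alternatingGroup (Fin 5)) (a : A) : Perm.sign (phi e a) = 1 :=
  Equiv.Perm.mem_alternatingGroup.1 (e a).2

theorem phi_eq_one (e : A ≃* alternatingGroup (Fin 5)) (a : A) : phi e a = 1 ↔ a = 1 := by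
  constructor
  · intro h
    apply phi_injective e
    rw [h, map_one]
  · rintro rfl
    exact map_one _

theorem card_transfer (e : A ≃* alternatingGroup (Fin 5)) (P : A → Prop)
    (P' : Perm (Fin 5) → Prop) [DecidablePred P'] (h : ∀ a, P a ↔ P' (phi e a)) :
    Nat.card {a : A // P a} =
      (Finset.univ.filter (fun σ : Perm (Fin 5) => Perm.sign σ = 1 ∧ P' σ)).card := by
  have e1 : {a : A // P a} ≃ {σ : Perm (Fin 5) // Perm.sign σ = 1 ∧ P' σ} :=
    { toFun := fun a => ⟨phi e a.1, phi_sign e a.1, (h a.1).1 a.2⟩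
      invFun := fun σ => ⟨e.symm ⟨σ.1, Equiv.Perm.mem_alternatingGroup.2 σ.2.1⟩, by
        rw [h]
        have : phi e (e.symm ⟨σ.1, Equiv.Perm.mem_alternatingGroup.2 σ.2.1⟩) = σ.1 := by
          simp [phi]
        rw [this]
        exact σ.2.2⟩
      left_inv := by
        intro a
        apply Subtype.ext
        simp [phi]
      right_inv := by
        intro σ
        apply Subtype.ext
        simp [phi] }
  rw [Nat.card_congr e1, Nat.card_eq_fintype_card, Fintype.card_subtype]

theorem orderOf_two_iff {B : Type*} [Group B] (a : B) : orderOf a = 2 ↔ a ≠ 1 ∧ a * a = 1 := by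
  have : Fact (Nat.Prime 2) := ⟨Nat.prime_two⟩
  rw [orderOf_eq_prime_iff, pow_two]
  tauto

theorem a5_card (e : A ≃* alternatingGroup (Fin 5)) : Nat.card A = 60 := by
  rw [Nat.card_congr e.toEquiv]
  have h := two_mul_card_alternatingGroup (α := Fin 5)
  rw [Fintype.card_perm, Fintype.card_fin] at h
  rw [Nat.card_eq_fintype_card]
  have : Nat.factorial 5 = 120 := by decide
  omega

theorem a5_orderOf (e : A ≃* alternatingGroup (Fin 5)) (a : A) :
    orderOf a = 1 ∨ orderOf a = 2 ∨ orderOf a = 3 ∨ orderOf a = 5 := by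
  have h := p4 (phi e a) (phi_sign e a)
  have tr : ∀ n : ℕ, (phi e a) ^ n = 1 → a ^ n = 1 := by
    intro n hn
    rw [← map_pow] at hn
    exact (phi_eq_one e _).1 hn
  have key : ∀ p : ℕ, p.Prime → a ^ p = 1 → orderOf a = 1 ∨ orderOf a = p := fun p hp hh =>
    (Nat.dvd_prime hp).1 (orderOf_dvd_of_pow_eq_one hh)
  rcases h with h | h | h
  · rcases key 2 Nat.prime_two (tr 2 h) with h | h <;> simp [h]
  · rcases key 3 Nat.prime_three (tr 3 h) with h | h <;> simp [h]
  · rcases key 5 Nat.prime_five (tr 5 h) with h | h <;> simp [h]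

theorem a5_inv_card (e : A ≃* alternatingGroup (Fin 5)) :
    Nat.card {x : A // orderOf x = 2} = 15 := by
  rw [card_transfer e (fun x => orderOf x = 2) (fun σ => σ ≠ 1 ∧ σ * σ = 1)]
  · exact p1
  · intro a
    rw [orderOf_two_iff, ← map_mul, phi_eq_one]
    exact and_congr (not_congr (phi_eq_one e a).symm) Iff.rfl

theorem a5_cent (e : A ≃* alternatingGroup (Fin 5)) (x : A) (hx : orderOf x = 2) :
    Nat.card {c : A // c * x = x * c} = 4 ∧ ∀ c : A, c * x = x * c → c * c = 1 := by
  rw [orderOf_two_iff] at hx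
  have hx1 : phi e x ≠ 1 := fun h => hx.1 ((phi_eq_one e x).1 h)
  have hx2 : phi e x * phi e x = 1 := by rw [← map_mul, hx.2, map_one]
  obtain ⟨h1, h2⟩ := p2 (phi e x) (phi_sign e x) hx1 hx2
  constructor
  · rw [card_transfer e (fun c => c * x = x * c) (fun σ => σ * phi e x = phi e x * σ)]
    · exact h1
    · intro a
      rw [← map_mul, ← map_mul]
      exact ⟨fun h => by rw [h], fun h => phi_injective e h⟩
  · intro c hc
    have := h2 (phi e c) (phi_sign e c) (by rw [← map_mul, ← map_mul, hc])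
    rw [← map_mul, phi_eq_one] at this
    exact this

theorem a5_odd (e : A ≃* alternatingGroup (Fin 5)) (x : A) (hx : orderOf x = 2) :
    Nat.card {b : A // b * b = 1 ∧ Odd (orderOf (x * b))} = 13 := by
  rw [orderOf_two_iff] at hx
  have hx1 : phi e x ≠ 1 := fun h => hx.1 ((phi_eq_one e x).1 h)
  have hx2 : phi e x * phi e x = 1 := by rw [← map_mul, hx.2, map_one]
  have h3 := p3 (phi e x) (phi_sign e x) hx1 hx2
  rw [card_transfer e (fun b => b * b = 1 ∧ Odd (orderOf (x * b)))
    (fun σ => σ * σ = 1 ∧ (phi e x * σ = 1 ∨ (phi e x * σ) * (phi e x * σ) ≠ 1))]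
  · exact h3
  · intro b
    rw [← map_mul, phi_eq_one, ← map_mul, ← map_mul, phi_eq_one]
    have hne : (phi e) (x * b * (x * b)) ≠ 1 ↔ x * b * (x * b) ≠ 1 :=
      not_congr (phi_eq_one e _)
    rw [hne]
    apply and_congr Iff.rfl
    constructor
    · intro hodd
      by_contra hcon
      push Not at hcon
      have : orderOf (x * b) = 2 := (orderOf_two_iff _).2 hcon
      rw [this] at hodd
      exact absurd hodd (by decide)
    · intro h
      rcases a5_orderOf e (x * b) with h1 | h1 | h1 | h1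
      · rw [h1]; decide
      · exfalso
        rw [orderOf_two_iff] at h1
        rcases h with h | h
        · exact h1.1 h
        · exact h h1.2
      · rw [h1]; decide
      · rw [h1]; decide

theorem a5_five (e : A ≃* alternatingGroup (Fin 5)) : ∃ g : A, orderOf g = 5 := by
  have : Fact (Nat.Prime 5) := ⟨Nat.prime_five⟩
  have hc := a5_card e
  have : Finite A := Nat.finite_of_card_ne_zero (by rw [hc]; norm_num)
  exact exists_prime_orderOf_dvd_card' 5 (by rw [hc]; norm_num)

end Cfsg.Agent.H47.J2A5
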