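import Cfsg.Agent.H47.AbelPerm

/-!
# Abelian groups of even permutations: the bound `|K| ≤ hA n`
-/

set_option autoImplicit false

namespace Cfsg.Agent.H47

/-- The largest order of an abelian subgroup of the alternating group of degree `n`. -/
def hA : ℕ → ℕ
  | 0 => 1
  | 1 => 1
  | 2 => 1
  | 3 => 3
  | 4 => 4
  | 5 => 5
  | 6 => 9
  | 7 => 12
  | 8 => 16
  | (n+9) => 3 * hA (n+6)

theorem hA_add9 (n : ℕ) : hA (n+9) = 3 * hA (n+6) := by rw [hA]

theorem le_hA : ∀ n, n ≠ 2 → n ≤ hA n := by
  intro n
  induction n using Nat.strong_induction_on with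
  | _ n ih =>
    intro hn
    rcases Nat.lt_or_ge n 9 with h | h
    · interval_cases n <;> first | decide | exact absurd rfl hn
    · obtain ⟨m, rfl⟩ : ∃ m, n = m + 9 := ⟨n - 9, by omega⟩
      rw [hA_add9]
      have := ih (m+6) (by omega) (by omega)
      omega

theorem hA_mul_le : ∀ s a b : ℕ, a + b = s → hA a * hA b ≤ hA (a + b) := by
  intro s
  induction s using Nat.strong_induction_on with
  | _ s ih =>
    intro a b hab
    rcases Nat.lt_or_ge a 9 with ha | ha
    · rcases Nat.lt_or_ge b 9 with hb | hb
      · interval_cases a <;> interval_cases b <;> decide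
      · obtain ⟨m, rfl⟩ : ∃ m, b = m + 9 := ⟨b - 9, by omega⟩
        have h1 : a + (m + 9) = (a + m) + 9 := by omega
        have h2 : a + m + 6 = a + (m + 6) := by omega
        rw [h1, hA_add9, hA_add9, h2]
        have := ih (a + (m+6)) (by omega) a (m+6) rfl
        nlinarith
    · obtain ⟨m, rfl⟩ : ∃ m, a = m + 9 := ⟨a - 9, by omega⟩
      have h1 : (m + 9) + b = (m + b) + 9 := by omega
      have h2 : m + b + 6 = (m + 6) + b := by omega
      rw [h1, hA_add9, hA_add9, h2]
      have := ih ((m+6) + b) (by omega) (m+6) b rfl
      nlinarith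

theorem hS_le_hA : ∀ n, hS n ≤ hA (n + 2) := by
  intro n
  induction n using Nat.strong_induction_on with
  | _ n ih =>
    rcases Nat.lt_or_ge n 7 with h | h
    · interval_cases n <;> decide
    · obtain ⟨m, rfl⟩ : ∃ m, n = m + 7 := ⟨n - 7, by omega⟩
      have h1 : m + 7 = (m + 2) + 5 := by omega
      have h2 : m + 7 + 2 = m + 9 := by omega
      have h3 : m + 2 + 2 = m + 4 := by omega
      rw [h2, hA_add9, h1, hS_add5, h3]
      have := ih (m+4) (by omega)
      have h4 : m + 4 + 2 = m + 6 := by omega
      rw [h4] at this
      omega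

theorem hA_three_mul_add_two (k : ℕ) (hk : 2 ≤ k) : hA (3 * k + 2) = 16 * 3 ^ (k - 2) := by
  induction k using Nat.strong_induction_on with
  | _ k ih =>
    rcases Nat.lt_or_ge k 3 with h | h
    · interval_cases k; decide
    · obtain ⟨m, rfl⟩ : ∃ m, k = m + 3 := ⟨k - 3, by omega⟩
      have h1 : 3 * (m + 3) + 2 = (3 * m + 2) + 9 := by ring
      have h2 : 3 * m + 2 + 6 = 3 * (m + 2) + 2 := by ring
      rw [h1, hA_add9, h2, ih (m+2) (by omega) (by omega)]
      have h3 : m + 2 - 2 = m := by omega
      have h4 : m + 3 - 2 = m + 1 := by omega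
      rw [h3, h4]
      ring

open Equiv

/-- A finite abelian group acting faithfully by even permutations on `n` points has order at
most `hA n`. -/
theorem card_le_hA : ∀ (n : ℕ) (β : Type) [Fintype β] [DecidableEq β], Fintype.card β = n →
    ∀ (K : Type) [Group K] [IsMulCommutative K] (φ : K →* Equiv.Perm β), Function.Injective φ →
    (∀ k, Equiv.Perm.sign (φ k) = 1) → Nat.card K ≤ hA n := by
  intro n
  induction n using Nat.strong_induction_on with
  | _ n ih =>
  intro β _ _ hβ K _ _ φ hφ hsign
  classical
  have : Finite K := Finite.of_injective φ hφ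
  rcases Nat.eq_zero_or_pos n with hn | hn
  · subst hn
    have h1 : Nat.card K ≤ Nat.card (Equiv.Perm β) := Nat.card_le_card_of_injective φ hφ
    have h2 : Nat.card (Equiv.Perm β) = 1 := by
      rw [Nat.card_eq_fintype_card, Fintype.card_perm, hβ]
      rfl
    rw [h2] at h1
    exact h1
  · obtain ⟨x⟩ : Nonempty β := Fintype.card_pos_iff.mp (hβ ▸ hn)
    let _ : MulAction K β := MulAction.compHom β φ
    have hsmul : ∀ (k : K) (y : β), k • y = φ k y := fun _ _ => rfl
    set O : Set β := MulAction.orbit K x with hO
    set S : Subgroup K := MulAction.stabilizer K x with hS'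
    have f1 : ∀ s ∈ S, ∀ y ∈ O, φ s y = y := by
      rintro s hs y ⟨k, rfl⟩
      have hsx : φ s x = x := by
        have := MulAction.mem_stabilizer_iff.mp hs
        rwa [hsmul] at this
      show φ s (φ k x) = φ k x
      rw [← Equiv.Perm.mul_apply, ← map_mul, mul_comm' s k, map_mul, Equiv.Perm.mul_apply, hsx]
    have f2 : ∀ (k : K) (y : β), φ k y ∈ O ↔ y ∈ O := by
      intro k y
      rw [← hsmul, hO, ← MulAction.orbit_eq_iff, MulAction.orbit_smul, MulAction.orbit_eq_iff]
    have : IsMulCommutative S := ⟨⟨fun a b => Subtype.ext (mul_comm' _ _)⟩⟩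
    have hm1 : Nat.card O = Fintype.card {y // y ∈ O} := Nat.card_eq_fintype_card
    have hmpos : 0 < Fintype.card {y // y ∈ O} :=
      Fintype.card_pos_iff.mpr ⟨⟨x, MulAction.mem_orbit_self x⟩⟩
    have hmle : Fintype.card {y // y ∈ O} ≤ n := hβ ▸ Fintype.card_subtype_le _
    have hT : Fintype.card {y // y ∉ O} = n - Fintype.card {y // y ∈ O} := by
      rw [Fintype.card_subtype_compl, hβ]
    by_cases hm2 : Fintype.card {y // y ∈ O} = 2
    · -- orbit of size two: restrict the whole group to the complement
      let ψ : K →* Equiv.Perm {y // y ∉ O} :=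
        { toFun := fun s => (φ s).subtypePerm (fun y => not_congr (f2 s y))
          map_one' := by
            ext ⟨y, hy⟩
            simp
          map_mul' := fun s t => by
            ext ⟨y, hy⟩
            show φ (s * t) y = φ s (φ t y)
            rw [map_mul]
            rfl }
      have hψ : Function.Injective ψ := by
        rw [injective_iff_map_eq_one]
        intro s hs
        have hfix : ∀ y, y ∉ O → φ s y = y := by
          intro y hy
          have := congrArg (fun σ : Equiv.Perm {y // y ∉ O} => (σ ⟨y, hy⟩ : β)) hs
          simpa [ψ] using this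
        by_contra hs1
        have h1 : φ s ≠ 1 := fun h => hs1 (hφ (h.trans (map_one φ).symm))
        obtain ⟨y, hy⟩ : ∃ y, φ s y ≠ y := by
          by_contra hcon
          push Not at hcon
          exact h1 (Equiv.ext hcon)
        have hyO : y ∈ O := by
          by_contra h
          exact hy (hfix y h)
        have hzO : φ s y ∈ O := (f2 s y).mpr hyO
        have hO2 : ∀ w, w ∈ O → w = y ∨ w = φ s y := by
          intro w hw
          by_contra hcon
          push Not at hcon
          have : 2 < Fintype.card {y // y ∈ O} := by
            rw [Fintype.two_lt_card_iff]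
            refine ⟨⟨w, hw⟩, ⟨y, hyO⟩, ⟨φ s y, hzO⟩, ?_, ?_, ?_⟩
            · exact fun h => hcon.1 (congrArg Subtype.val h)
            · exact fun h => hcon.2 (congrArg Subtype.val h)
            · exact fun h => hy (congrArg Subtype.val h).symm
          omega
        have hzy : φ s (φ s y) = y := by
          rcases hO2 _ ((f2 s _).mpr hzO) with h | h
          · exact h
          · exact absurd ((φ s).injective h) hy
        have hswap : φ s = Equiv.swap y (φ s y) := by
          ext w
          by_cases hw1 : w = y
          · rw [hw1, Equiv.swap_apply_left]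
          · by_cases hw2 : w = φ s y
            · rw [hw2, Equiv.swap_apply_right, hzy]
            · rw [Equiv.swap_apply_of_ne_of_ne hw1 hw2]
              apply hfix
              intro hw
              rcases hO2 w hw with h | h
              · exact hw1 h
              · exact hw2 h
        have := hsign s
        rw [hswap, Equiv.Perm.sign_swap (Ne.symm hy)] at this
        exact absurd this (by decide)
      have hbound := card_le_hS (n - 2) {y // y ∉ O} (by rw [hT, hm2]) K ψ hψ
      have h2 : n - 2 + 2 = n := by omega
      calc Nat.card K ≤ hS (n - 2) := hbound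
        _ ≤ hA (n - 2 + 2) := hS_le_hA _
        _ = hA n := by rw [h2]
    · let ψ : S →* Equiv.Perm {y // y ∉ O} :=
        { toFun := fun s => (φ s).subtypePerm (fun y => not_congr (f2 s y))
          map_one' := by
            ext ⟨y, hy⟩
            simp
          map_mul' := fun s t => by
            ext ⟨y, hy⟩
            show φ ((s : K) * (t : K)) y = φ s (φ t y)
            rw [map_mul]
            rfl }
      have hψ : Function.Injective ψ := by
        rw [injective_iff_map_eq_one]
        intro s hs
        have h1 : φ s = 1 := by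
          ext y
          by_cases hy : y ∈ O
          · simpa using f1 s s.2 y hy
          · have := congrArg (fun σ : Equiv.Perm {y // y ∉ O} => (σ ⟨y, hy⟩ : β)) hs
            simpa [ψ] using this
        have h2 : (s : K) = 1 := hφ (h1.trans (map_one φ).symm)
        exact Subtype.ext h2
      have hψsign : ∀ s, Equiv.Perm.sign (ψ s) = 1 := by
        intro s
        show Equiv.Perm.sign ((φ s).subtypePerm (fun y => not_congr (f2 s y))) = 1
        rw [Equiv.Perm.sign_subtypePerm, hsign]
        intro y hy hyO
        exact hy (f1 s s.2 y hyO)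
      have hih := ih (n - Fintype.card {y // y ∈ O}) (by omega) {y // y ∉ O} hT S ψ hψ hψsign
      have hcard : Nat.card K = Fintype.card {y // y ∈ O} * Nat.card S := by
        rw [Subgroup.card_eq_card_quotient_mul_card_subgroup S, ← hm1]
        congr 1
        exact (Nat.card_congr (MulAction.orbitEquivQuotientStabilizer K x)).symm
      rw [hcard]
      calc Fintype.card {y // y ∈ O} * Nat.card S
          ≤ hA (Fintype.card {y // y ∈ O}) * hA (n - Fintype.card {y // y ∈ O}) :=
            Nat.mul_le_mul (le_hA _ hm2) hih
        _ ≤ hA (Fintype.card {y // y ∈ O} + (n - Fintype.card {y // y ∈ O})) := hA_mul_le _ _ _ rfl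
        _ = hA n := by congr 1; omega

/-- upper bounds for abelian subgroups of the alternating group -/
theorem card_le_hA_subgroup (n : ℕ) (A : Subgroup (alternatingGroup (Fin n))) (hA' : IsMulCommutative A) :
    Nat.card A ≤ hA n :=
  card_le_hA n (Fin n) (Fintype.card_fin n) A ((alternatingGroup (Fin n)).subtype.comp A.subtype)
    ((Subgroup.subtype_injective _).comp (Subgroup.subtype_injective _))
    (fun k => Equiv.Perm.mem_alternatingGroup.mp k.1.2)

theorem card_le_hS_alt_subgroup (n : ℕ) (A : Subgroup (alternatingGroup (Fin n))) (hA' : IsMulCommutative A) :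
    Nat.card A ≤ hS n :=
  card_le_hS n (Fin n) (Fintype.card_fin n) A ((alternatingGroup (Fin n)).subtype.comp A.subtype)
    ((Subgroup.subtype_injective _).comp (Subgroup.subtype_injective _))

end Cfsg.Agent.H47
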