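import Cfsg.Agent.H47.AbelNum

/-!
# Abelian subgroups of maximal order in the alternating groups are conjugate

Equality case of the bound `|A| ≤ hA n`: peeling one orbit at a time, a maximal-order even abelian
group splits as (regular group on the orbit) × (maximal-order group on the complement).
-/

set_option autoImplicit false
set_option linter.unusedSectionVars false

namespace Cfsg.Agent.H47.AC

open Equiv
open scoped Pointwise

/-- Sylow conjugacy inside the alternating group, phrased for subgroups of the symmetric group. -/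
theorem sylow_conj {γ : Type} [Fintype γ] [DecidableEq γ] (p k : ℕ) [Fact p.Prime]
    (P Q : Subgroup (Perm γ)) (hP : P ≤ alternatingGroup γ) (hQ : Q ≤ alternatingGroup γ)
    (hcP : Nat.card P = p ^ k) (hcQ : Nat.card Q = p ^ k)
    (hmax : ¬ p ^ (k + 1) ∣ Nat.card (alternatingGroup γ)) :
    ∃ g : Perm γ, Perm.sign g = 1 ∧ Q = P.map (MulAut.conj g).toMonoidHom := by
  have hp : p.Prime := Fact.out
  have hcP' : Nat.card (P.subgroupOf (alternatingGroup γ)) = p ^ k := by
    rw [← hcP]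
    exact Nat.card_congr (Subgroup.subgroupOfEquivOfLe hP).toEquiv
  have hcQ' : Nat.card (Q.subgroupOf (alternatingGroup γ)) = p ^ k := by
    rw [← hcQ]
    exact Nat.card_congr (Subgroup.subgroupOfEquivOfLe hQ).toEquiv
  have hG0 : Nat.card (alternatingGroup γ) ≠ 0 := Nat.card_pos.ne'
  have hfac : (Nat.card (alternatingGroup γ)).factorization p = k := by
    have h1 : p ^ k ∣ Nat.card (alternatingGroup γ) := by
      rw [← hcP']
      exact Subgroup.card_subgroup_dvd_card _
    have h2 := (hp.pow_dvd_iff_le_factorization hG0).mp h1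
    have h3 : ¬ (k + 1 ≤ (Nat.card (alternatingGroup γ)).factorization p) :=
      fun h => hmax ((hp.pow_dvd_iff_le_factorization hG0).mpr h)
    omega
  have eP : Nat.card (P.subgroupOf (alternatingGroup γ)) =
      p ^ (Nat.card (alternatingGroup γ)).factorization p := by rw [hfac, hcP']
  have eQ : Nat.card (Q.subgroupOf (alternatingGroup γ)) =
      p ^ (Nat.card (alternatingGroup γ)).factorization p := by rw [hfac, hcQ']
  obtain ⟨g, hg⟩ := MulAction.exists_smul_eq (alternatingGroup γ) (Sylow.ofCard _ eP) (Sylow.ofCard _ eQ)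
  have key : MulAut.conj g • (P.subgroupOf (alternatingGroup γ)) = Q.subgroupOf (alternatingGroup γ) := by
    have := congrArg Sylow.toSubgroup hg
    rw [Sylow.coe_subgroup_smul] at this
    exact this
  refine ⟨g, Perm.mem_alternatingGroup.mp g.2, ?_⟩
  ext y
  constructor
  · intro hy
    have h1 : (⟨y, hQ hy⟩ : alternatingGroup γ) ∈ Q.subgroupOf (alternatingGroup γ) :=
      Subgroup.mem_subgroupOf.mpr hy
    rw [← key, Subgroup.mem_pointwise_smul_iff_inv_smul_mem] at h1
    have h2 := Subgroup.mem_subgroupOf.mp h1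
    refine ⟨_, h2, ?_⟩
    show (g : Perm γ) * _ * (g : Perm γ)⁻¹ = y
    simp [MulAut.smul_def, mul_assoc]
  · rintro ⟨z, hz, rfl⟩
    have h1 : (⟨z, hP hz⟩ : alternatingGroup γ) ∈ P.subgroupOf (alternatingGroup γ) :=
      Subgroup.mem_subgroupOf.mpr hz
    have h2 : MulAut.conj g • (⟨z, hP hz⟩ : alternatingGroup γ) ∈
        MulAut.conj g • (P.subgroupOf (alternatingGroup γ)) :=
      Subgroup.smul_mem_pointwise_smul _ _ _ h1
    rw [key] at h2
    exact Subgroup.mem_subgroupOf.mp h2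


section res

variable {β : Type} [Fintype β] [DecidableEq β]

/-- the `A`-orbit of a point, as a set -/
def orb (A : Subgroup (Perm β)) (x : β) : Set β := {y | ∃ a ∈ A, a x = y}

theorem mem_orb_self (A : Subgroup (Perm β)) (x : β) : x ∈ orb A x := ⟨1, A.one_mem, rfl⟩

theorem orb_eq_orbit (A : Subgroup (Perm β)) (x : β) : orb A x = MulAction.orbit A x := by
  ext y
  constructor
  · rintro ⟨a, ha, rfl⟩
    exact ⟨⟨a, ha⟩, rfl⟩
  · rintro ⟨a, rfl⟩
    exact ⟨a.1, a.2, rfl⟩

theorem orb_inv (A : Subgroup (Perm β)) (x : β) (a : Perm β) (ha : a ∈ A) (y : β) :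
    a y ∈ orb A x ↔ y ∈ orb A x := by
  constructor
  · rintro ⟨b, hb, h⟩
    refine ⟨a⁻¹ * b, A.mul_mem (A.inv_mem ha) hb, ?_⟩
    rw [Perm.mul_apply, h]
    simp
  · rintro ⟨b, hb, rfl⟩
    exact ⟨a * b, A.mul_mem ha hb, rfl⟩

theorem fix_orb (A : Subgroup (Perm β)) (hc : ∀ a ∈ A, ∀ b ∈ A, a * b = b * a) (x : β)
    (s : Perm β) (hs : s ∈ A) (hsx : s x = x) : ∀ y ∈ orb A x, s y = y := by
  rintro y ⟨b, hb, rfl⟩
  rw [← Perm.mul_apply, hc s hs b hb, Perm.mul_apply, hsx]

variable (A : Subgroup (Perm β)) (p : β → Prop) [DecidablePred p]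

/-- `A` preserves the predicate `p` -/
def Inv : Prop := ∀ a ∈ A, ∀ y, p (a y) ↔ p y

variable {A p}

/-- restriction to the complement of `p` -/
def resOut (h : Inv A p) : A →* Perm {y // ¬ p y} where
  toFun a := (a : Perm β).subtypePerm (fun y => not_congr (h a a.2 y))
  map_one' := by
    ext ⟨y, hy⟩
    simp
  map_mul' s t := by
    ext ⟨y, hy⟩
    rfl

/-- restriction to `p` -/
def resIn (h : Inv A p) : A →* Perm {y // p y} where
  toFun a := (a : Perm β).subtypePerm (h a a.2)
  map_one' := by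
    ext ⟨y, hy⟩
    simp
  map_mul' s t := by
    ext ⟨y, hy⟩
    rfl

theorem resOut_apply (h : Inv A p) (a : A) (y : {y // ¬ p y}) : (resOut h a y : β) = (a : Perm β) y := rfl

theorem resIn_apply (h : Inv A p) (a : A) (y : {y // p y}) : (resIn h a y : β) = (a : Perm β) y := rfl

theorem congr_res (h : Inv A p) (a : A) : Perm.subtypeCongr (resIn h a) (resOut h a) = (a : Perm β) := by
  ext y
  by_cases hy : p y
  · rw [Perm.subtypeCongr.left_apply _ _ hy]
    rfl
  · rw [Perm.subtypeCongr.right_apply _ _ hy]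
    rfl

variable (A p)

/-- the part of `A` supported on `p` -/
def TT : Subgroup (Perm {y // p y}) :=
  A.comap ((Perm.subtypeCongrHom p).comp (MonoidHom.inl _ _))

/-- the part of `A` supported off `p` -/
def SS : Subgroup (Perm {y // ¬ p y}) :=
  A.comap ((Perm.subtypeCongrHom p).comp (MonoidHom.inr _ _))

variable {A p}

theorem mem_TT {t : Perm {y // p y}} : t ∈ TT A p ↔ Perm.subtypeCongr t 1 ∈ A := Iff.rfl

theorem mem_SS {s : Perm {y // ¬ p y}} : s ∈ SS A p ↔ Perm.subtypeCongr 1 s ∈ A := Iff.rfl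

theorem congr_mul (t t' : Perm {y // p y}) (s s' : Perm {y // ¬ p y}) :
    Perm.subtypeCongr t s * Perm.subtypeCongr t' s' = Perm.subtypeCongr (t * t') (s * s') :=
  (map_mul (Perm.subtypeCongrHom p) (t, s) (t', s')).symm

theorem congr_inv (t : Perm {y // p y}) (s : Perm {y // ¬ p y}) :
    (Perm.subtypeCongr t s)⁻¹ = Perm.subtypeCongr t⁻¹ s⁻¹ :=
  (map_inv (Perm.subtypeCongrHom p) (t, s)).symm

theorem congr_inj {t t' : Perm {y // p y}} {s s' : Perm {y // ¬ p y}}
    (h : Perm.subtypeCongr t s = Perm.subtypeCongr t' s') : t = t' ∧ s = s' := by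
  have := Perm.subtypeCongrHom_injective p (a₁ := (t, s)) (a₂ := (t', s')) h
  exact Prod.mk.inj this

theorem TT_comm (hc : ∀ a ∈ A, ∀ b ∈ A, a * b = b * a) :
    ∀ a ∈ TT A p, ∀ b ∈ TT A p, a * b = b * a := by
  intro a ha b hb
  have := hc _ (mem_TT.mp ha) _ (mem_TT.mp hb)
  rw [congr_mul, congr_mul] at this
  exact (congr_inj this).1

theorem SS_comm (hc : ∀ a ∈ A, ∀ b ∈ A, a * b = b * a) :
    ∀ a ∈ SS A p, ∀ b ∈ SS A p, a * b = b * a := by
  intro a ha b hb
  have := hc _ (mem_SS.mp ha) _ (mem_SS.mp hb)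
  rw [congr_mul, congr_mul] at this
  exact (congr_inj this).2

theorem TT_even (he : ∀ a ∈ A, Perm.sign a = 1) : ∀ a ∈ TT A p, Perm.sign a = 1 := by
  intro a ha
  have := he _ (mem_TT.mp ha)
  rwa [Perm.sign_subtypeCongr, map_one, mul_one] at this

theorem SS_even (he : ∀ a ∈ A, Perm.sign a = 1) : ∀ a ∈ SS A p, Perm.sign a = 1 := by
  intro a ha
  have := he _ (mem_SS.mp ha)
  rwa [Perm.sign_subtypeCongr, map_one, one_mul] at this


theorem card_le_hA_sub {γ : Type} [Fintype γ] [DecidableEq γ] (H : Subgroup (Perm γ))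
    (hc : ∀ a ∈ H, ∀ b ∈ H, a * b = b * a) (he : ∀ a ∈ H, Perm.sign a = 1) :
    Nat.card H ≤ hA (Fintype.card γ) := by
  have : IsMulCommutative H := ⟨⟨fun a b => Subtype.ext (hc a a.2 b b.2)⟩⟩
  exact card_le_hA _ γ rfl H H.subtype (Subgroup.subtype_injective _) (fun k => he k k.2)

theorem card_le_hS_sub {γ : Type} [Fintype γ] [DecidableEq γ] (H : Subgroup (Perm γ))
    (hc : ∀ a ∈ H, ∀ b ∈ H, a * b = b * a) :
    Nat.card H ≤ hS (Fintype.card γ) := by
  have : IsMulCommutative H := ⟨⟨fun a b => Subtype.ext (hc a a.2 b b.2)⟩⟩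
  exact card_le_hS _ γ rfl H H.subtype (Subgroup.subtype_injective _)

theorem two_mul_card_le {G : Type*} [Group G] [Finite G] (H K : Subgroup G) (hle : H ≤ K) (hne : H ≠ K) :
    2 * Nat.card H ≤ Nat.card K := by
  obtain ⟨c, hc⟩ := Subgroup.card_dvd_of_le hle
  have hK : 0 < Nat.card K := Nat.card_pos
  have hH : 0 < Nat.card H := Nat.card_pos
  have hc1 : c ≠ 1 := by
    rintro rfl
    rw [mul_one] at hc
    exact hne (Subgroup.eq_of_le_of_card_ge hle hc.le)
  have hc0 : c ≠ 0 := by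
    rintro rfl
    rw [mul_zero] at hc
    omega
  have hc2 : 2 ≤ c := by omega
  calc 2 * Nat.card H = Nat.card H * 2 := mul_comm _ _
    _ ≤ Nat.card H * c := Nat.mul_le_mul_left _ hc2
    _ = Nat.card K := hc.symm

variable {A : Subgroup (Perm β)} {p : β → Prop} [DecidablePred p]

/-- if every element of `A` splits, `A` is the product of its two parts -/
theorem mem_iff_split (h : Inv A p) (hsplit : ∀ a : A, resOut h a ∈ SS A p) (a : Perm β) :
    a ∈ A ↔ ∃ t ∈ TT A p, ∃ s ∈ SS A p, a = Perm.subtypeCongr t s := by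
  constructor
  · intro ha
    have h1 := hsplit ⟨a, ha⟩
    have h2 : Perm.subtypeCongr (resIn h ⟨a, ha⟩) (resOut h ⟨a, ha⟩) = a := congr_res h ⟨a, ha⟩
    refine ⟨resIn h ⟨a, ha⟩, ?_, resOut h ⟨a, ha⟩, h1, h2.symm⟩
    have h3 : Perm.subtypeCongr (resIn h ⟨a, ha⟩) 1 =
        Perm.subtypeCongr (resIn h ⟨a, ha⟩) (resOut h ⟨a, ha⟩) *
          (Perm.subtypeCongr 1 (resOut h ⟨a, ha⟩))⁻¹ := by
      rw [congr_inv, congr_mul]
      simp
    rw [mem_TT, h3, h2]
    exact A.mul_mem ha (A.inv_mem (mem_SS.mp h1))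
  · rintro ⟨t, ht, s, hs, rfl⟩
    have : Perm.subtypeCongr t s = Perm.subtypeCongr t 1 * Perm.subtypeCongr 1 s := by
      rw [congr_mul]
      simp
    rw [this]
    exact A.mul_mem (mem_TT.mp ht) (mem_SS.mp hs)

theorem card_split (h : Inv A p) (hsplit : ∀ a : A, resOut h a ∈ SS A p) :
    Nat.card A = Nat.card (TT A p) * Nat.card (SS A p) := by
  rw [← Nat.card_prod]
  symm
  refine Nat.card_congr (Equiv.ofBijective
    (fun ts : TT A p × SS A p => (⟨Perm.subtypeCongr ts.1.1 ts.2.1,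
      (mem_iff_split h hsplit _).mpr ⟨_, ts.1.2, _, ts.2.2, rfl⟩⟩ : A)) ⟨?_, ?_⟩)
  · rintro ⟨⟨t, ht⟩, ⟨s, hs⟩⟩ ⟨⟨t', ht'⟩, ⟨s', hs'⟩⟩ hEq
    have := congr_inj (congrArg Subtype.val hEq)
    simp only [Prod.mk.injEq, Subtype.mk.injEq]
    exact this
  · rintro ⟨a, ha⟩
    obtain ⟨t, ht, s, hs, rfl⟩ := (mem_iff_split h hsplit a).mp ha
    exact ⟨(⟨t, ht⟩, ⟨s, hs⟩), rfl⟩

/-- the point stabiliser is the part supported off the orbit -/
theorem card_stab (hc : ∀ a ∈ A, ∀ b ∈ A, a * b = b * a) (x : β) (hp : ∀ y, p y ↔ y ∈ orb A x)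
    (h : Inv A p) :
    Nat.card (MulAction.stabilizer A x) = Nat.card (SS A p) := by
  have hfix : ∀ s : A, s ∈ MulAction.stabilizer A x → resIn h s = 1 := by
    intro s hs
    ext ⟨y, hy⟩
    have hsx : (s : Perm β) x = x := MulAction.mem_stabilizer_iff.mp hs
    have := fix_orb A hc x s s.2 hsx y ((hp y).mp hy)
    simpa [resIn] using this
  have hmem : ∀ s : A, s ∈ MulAction.stabilizer A x → resOut h s ∈ SS A p := by
    intro s hs
    rw [mem_SS, ← hfix s hs, congr_res]
    exact s.2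
  refine Nat.card_congr (Equiv.ofBijective
    (fun s : MulAction.stabilizer A x => (⟨resOut h s.1, hmem s.1 s.2⟩ : SS A p)) ⟨?_, ?_⟩)
  · rintro ⟨s, hs⟩ ⟨s', hs'⟩ hEq
    have h1 : resOut h s = resOut h s' := congrArg Subtype.val hEq
    have h2 : (s : Perm β) = s' := by
      rw [← congr_res h s, ← congr_res h s', hfix s hs, hfix s' hs', h1]
    exact Subtype.ext (Subtype.ext h2)
  · rintro ⟨s', hs'⟩
    have hx : p x := (hp x).mpr (mem_orb_self A x)
    have hst : (⟨Perm.subtypeCongr 1 s', mem_SS.mp hs'⟩ : A) ∈ MulAction.stabilizer A x := by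
      rw [MulAction.mem_stabilizer_iff]
      show Perm.subtypeCongr 1 s' x = x
      rw [Perm.subtypeCongr.left_apply _ _ hx]
      rfl
    refine ⟨⟨_, hst⟩, ?_⟩
    apply Subtype.ext
    show resOut h ⟨Perm.subtypeCongr 1 s', mem_SS.mp hs'⟩ = s'
    ext ⟨y, hy⟩
    show Perm.subtypeCongr 1 s' y = _
    rw [Perm.subtypeCongr.right_apply _ _ hy]

/-- orbit–stabiliser in the form we need -/
theorem card_eq_orbit_mul (hc : ∀ a ∈ A, ∀ b ∈ A, a * b = b * a) (x : β) (hp : ∀ y, p y ↔ y ∈ orb A x)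
    (h : Inv A p) :
    Nat.card A = Fintype.card {y // p y} * Nat.card (SS A p) := by
  rw [← card_stab hc x hp h, Subgroup.card_eq_card_quotient_mul_card_subgroup (MulAction.stabilizer A x)]
  congr 1
  rw [← Nat.card_eq_fintype_card]
  have e1 : MulAction.orbit A x ≃ A ⧸ MulAction.stabilizer A x := MulAction.orbitEquivQuotientStabilizer A x
  have e2 : {y // p y} ≃ MulAction.orbit A x :=
    Equiv.subtypeEquivRight (fun y => by rw [hp y, orb_eq_orbit])
  exact (Nat.card_congr (e2.trans e1)).symm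


theorem range_comm (hc : ∀ a ∈ A, ∀ b ∈ A, a * b = b * a) (h : Inv A p) :
    ∀ a ∈ (resOut h).range, ∀ b ∈ (resOut h).range, a * b = b * a := by
  rintro _ ⟨a, rfl⟩ _ ⟨b, rfl⟩
  rw [← map_mul, ← map_mul]
  congr 1
  exact Subtype.ext (hc a a.2 b b.2)

theorem card_le_of_two (hc : ∀ a ∈ A, ∀ b ∈ A, a * b = b * a) (he : ∀ a ∈ A, Perm.sign a = 1)
    (h : Inv A p) (h2 : Fintype.card {y // p y} = 2) :
    Nat.card A ≤ hS (Fintype.card {y // ¬ p y}) := by
  have hnt : Nontrivial {y // p y} := Fintype.one_lt_card_iff_nontrivial.mp (by omega)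
  have halt : Fintype.card (alternatingGroup {y // p y}) = 1 := by
    have := two_mul_card_alternatingGroup (α := {y // p y})
    rw [Fintype.card_perm, h2] at this
    have h3 : Nat.factorial 2 = 2 := rfl
    omega
  have hTT : ∀ t ∈ TT A p, t = 1 := by
    intro t ht
    have h1 : t ∈ alternatingGroup {y // p y} := Perm.mem_alternatingGroup.mpr (TT_even he t ht)
    have hsub : Subsingleton (alternatingGroup {y // p y}) :=
      Fintype.card_le_one_iff_subsingleton.mp halt.le
    have := Subsingleton.elim (⟨t, h1⟩ : alternatingGroup {y // p y}) 1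
    exact congrArg Subtype.val this
  have hinj : Function.Injective (resOut h) := by
    rw [injective_iff_map_eq_one]
    intro a ha
    have h1 : Perm.subtypeCongr (resIn h a) 1 = (a : Perm β) := by
      rw [← ha]
      exact congr_res h a
    have h2 : resIn h a = 1 := hTT _ (by rw [mem_TT, h1]; exact a.2)
    apply Subtype.ext
    rw [← h1, h2]
    exact Perm.subtypeCongr.refl
  calc Nat.card A = Nat.card (resOut h).range := Nat.card_congr (Equiv.ofInjective _ hinj)
    _ ≤ hS (Fintype.card {y // ¬ p y}) := card_le_hS_sub _ (range_comm hc h)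

theorem SS_le_range (h : Inv A p) : SS A p ≤ (resOut h).range := by
  intro s hs
  refine ⟨⟨Perm.subtypeCongr 1 s, mem_SS.mp hs⟩, ?_⟩
  ext ⟨y, hy⟩
  show Perm.subtypeCongr 1 s y = _
  rw [Perm.subtypeCongr.right_apply _ _ hy]

/-- the structure of a maximal-order even abelian group around one orbit -/
theorem peel (hc : ∀ a ∈ A, ∀ b ∈ A, a * b = b * a) (he : ∀ a ∈ A, Perm.sign a = 1)
    (hcard : Nat.card A = hA (Fintype.card β)) (hn3 : 3 ≤ Fintype.card β)
    (hn5 : Fintype.card β ≠ 5) (x : β) (hp : ∀ y, p y ↔ y ∈ orb A x) (h : Inv A p) :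
    (Fintype.card {y // p y} = 3 ∨ Fintype.card {y // p y} = 4) ∧
    (Fintype.card {y // p y} = 4 → Fintype.card β % 3 ≠ 0) ∧
    (Fintype.card {y // ¬ p y} = 0 ∨ (3 ≤ Fintype.card {y // ¬ p y} ∧ Fintype.card {y // ¬ p y} ≠ 5)) ∧
    Nat.card (SS A p) = hA (Fintype.card {y // ¬ p y}) ∧
    Nat.card (TT A p) = Fintype.card {y // p y} ∧
    (∀ a : A, resOut h a ∈ SS A p) := by
  obtain ⟨n, hn⟩ : ∃ n, n = Fintype.card β := ⟨_, rfl⟩
  obtain ⟨m, hm⟩ : ∃ m, m = Fintype.card {y // p y} := ⟨_, rfl⟩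
  obtain ⟨c, hcc⟩ : ∃ c, c = Fintype.card {y // ¬ p y} := ⟨_, rfl⟩
  obtain ⟨s, hs⟩ : ∃ s, s = Nat.card (SS A p) := ⟨_, rfl⟩
  rw [← hn] at hcard hn3 hn5
  rw [← hn, ← hm, ← hcc, ← hs]
  have hm1 : 0 < m := by
    rw [hm]
    exact Fintype.card_pos_iff.mpr ⟨⟨x, (hp x).mpr (mem_orb_self A x)⟩⟩
  have hmle : m ≤ n := by
    rw [hm, hn]
    exact Fintype.card_subtype_le _
  have hc' : c = n - m := by
    rw [hcc, hn, hm]
    exact Fintype.card_subtype_compl _
  have hF1 : Nat.card A = m * s := by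
    rw [hm, hs]
    exact card_eq_orbit_mul hc x hp h
  have hSSle : s ≤ hA c := by
    rw [hs, hcc]
    exact card_le_hA_sub _ (SS_comm hc) (SS_even he)
  have hSSpos : 0 < s := by
    rw [hs]
    exact Nat.card_pos
  have hm2 : m ≠ 2 := by
    intro h2
    have h3 := card_le_of_two hc he h (hm ▸ h2)
    rw [← hcc, hcard] at h3
    have h4 := hS_lt_hA_add_two c (by omega)
    have h5 : c + 2 = n := by omega
    rw [h5] at h4
    omega
  have h1 := le_hA m hm2
  have h2 := hA_mul_le _ m c rfl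
  have h3 : m + c = n := by omega
  rw [h3] at h2
  have hApos := hA_pos c
  have hprod : m * s = hA m * hA c := by
    have h4 : m * s ≤ hA m * hA c := Nat.mul_le_mul h1 hSSle
    omega
  have hmeq : hA m = m := by
    by_contra hne
    have hlt : m < hA m := lt_of_le_of_ne h1 (Ne.symm hne)
    have h4 : m * s < hA m * s := Nat.mul_lt_mul_of_pos_right hlt hSSpos
    have h5 : hA m * s ≤ hA m * hA c := Nat.mul_le_mul_left _ hSSle
    omega
  have hseq : s = hA c := by
    by_contra hne
    have hlt : s < hA c := lt_of_le_of_ne hSSle hne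
    have h4 : m * s < m * hA c := Nat.mul_lt_mul_of_pos_left hlt hm1
    rw [hmeq] at hprod
    omega
  have hAn : hA m * hA c = hA n := by
    rw [← hprod, ← hF1, hcard]
  -- classification of `m`
  have hmc : (m = 3 ∨ m = 4) ∧ (m = 4 → n % 3 ≠ 0) ∧ (c = 0 ∨ (3 ≤ c ∧ c ≠ 5)) := by
    rcases hA_fix m hmeq with rfl | rfl | rfl | rfl
    · exfalso
      have h4 := hA_lt_succ c (by omega)
      have h5 : c + 1 = n := by omega
      rw [h5] at h4
      have h6 : hA 1 = 1 := rfl
      rw [h6, one_mul] at hAn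
      omega
    · have h4 : c + 3 = n := by omega
      have h6 : hA 3 = 3 := rfl
      rw [h6, ← h4] at hAn
      have := hA_three c hAn
      refine ⟨Or.inl rfl, fun h => absurd h (by norm_num), ?_⟩
      omega
    · have h4 : c + 4 = n := by omega
      have h6 : hA 4 = 4 := rfl
      rw [h6, ← h4] at hAn
      have := hA_four c hAn
      refine ⟨Or.inr rfl, fun _ => ?_, ?_⟩
      · rw [← h4]
        exact this.1
      · omega
    · exfalso
      have h4 : c + 5 = n := by omega
      have h6 : hA 5 = 5 := rfl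
      rw [h6, ← h4] at hAn
      have := hA_five c (by omega)
      omega
  -- splitting
  have hsplit : ∀ a : A, resOut h a ∈ SS A p := by
    intro a
    by_contra hcon
    have hle : SS A p ≤ (resOut h).range ⊓ alternatingGroup {y // ¬ p y} := by
      intro t ht
      exact ⟨SS_le_range h ht, Perm.mem_alternatingGroup.mpr (SS_even he t ht)⟩
    have hcardle : Nat.card ((resOut h).range ⊓ alternatingGroup {y // ¬ p y} : Subgroup _) ≤ hA c := by
      rw [hcc]
      refine card_le_hA_sub _ ?_ ?_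
      · intro u hu v hv
        exact range_comm hc h u hu.1 v hv.1
      · intro u hu
        exact Perm.mem_alternatingGroup.mp hu.2
    have heq : SS A p = (resOut h).range ⊓ alternatingGroup {y // ¬ p y} :=
      Subgroup.eq_of_le_of_card_ge hle (by rw [← hs, hseq]; exact hcardle)
    have hne : (resOut h).range ⊓ alternatingGroup {y // ¬ p y} ≠ (resOut h).range := by
      intro h4
      apply hcon
      rw [heq, h4]
      exact ⟨a, rfl⟩
    have h5 := two_mul_card_le _ _ inf_le_left hne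
    rw [← heq, ← hs, hseq] at h5
    have h6 : Nat.card (resOut h).range ≤ hS c := by
      rw [hcc]
      exact card_le_hS_sub _ (range_comm hc h)
    have h7 : c = 2 := by
      by_contra h8
      have := hS_lt_two_hA c h8
      omega
    omega
  refine ⟨hmc.1, hmc.2.1, hmc.2.2, hseq, ?_, hsplit⟩
  have h4 := card_split h hsplit
  rw [hF1, ← hs] at h4
  exact (Nat.eq_of_mul_eq_mul_right hSSpos h4).symm


end res

theorem mem_map_conj {G : Type*} [Group G] (H : Subgroup G) (g z : G) :
    z ∈ H.map (MulAut.conj g).toMonoidHom ↔ g⁻¹ * z * g ∈ H := by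
  constructor
  · rintro ⟨y, hy, rfl⟩
    have : g⁻¹ * (MulAut.conj g).toMonoidHom y * g = y := by
      show g⁻¹ * (g * y * g⁻¹) * g = y
      group
    rw [this]
    exact hy
  · intro h
    refine ⟨_, h, ?_⟩
    show g * (g⁻¹ * z * g) * g⁻¹ = z
    group

theorem card_p {β : Type} [Fintype β] [DecidableEq β] (A : Subgroup (Perm β)) (x : β)
    (p : β → Prop) [DecidablePred p] (hp : ∀ y, p y ↔ y ∈ orb A x) :
    Fintype.card {y // p y} = Nat.card (orb A x) := by
  rw [← Nat.card_eq_fintype_card]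
  exact Nat.card_congr (Equiv.subtypeEquivRight hp)

/-- when `3 ∤ n` there is an orbit of length four -/
theorem exists_four : ∀ (n : ℕ) (β : Type) [Fintype β] [DecidableEq β], Fintype.card β = n →
    ∀ (A : Subgroup (Perm β)), (∀ a ∈ A, ∀ b ∈ A, a * b = b * a) → (∀ a ∈ A, Perm.sign a = 1) →
    Nat.card A = hA n → 3 ≤ n → n ≠ 5 → n % 3 ≠ 0 → ∃ x : β, Nat.card (orb A x) = 4 := by
  intro n
  induction n using Nat.strong_induction_on with
  | _ n ih =>
  intro β _ _ hβ A hc he hcard hn3 hn5 hmod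
  classical
  obtain ⟨x⟩ : Nonempty β := Fintype.card_pos_iff.mp (by omega)
  obtain ⟨p, hp⟩ : ∃ p : β → Prop, ∀ y, p y ↔ y ∈ orb A x := ⟨fun y => y ∈ orb A x, fun _ => Iff.rfl⟩
  have h : Inv A p := by
    intro a ha y
    rw [hp, hp]
    exact orb_inv A x a ha y
  subst hβ
  obtain ⟨hm, hm4, hcomp, hSS, hTT, hsplit⟩ := peel hc he hcard hn3 hn5 x hp h
  have hcc : Fintype.card {y // ¬ p y} = Fintype.card β - Fintype.card {y // p y} :=
    Fintype.card_subtype_compl _
  have hmle : Fintype.card {y // p y} ≤ Fintype.card β := Fintype.card_subtype_le _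
  rcases hm with h3 | h4
  · have hc3 : 3 ≤ Fintype.card {y // ¬ p y} ∧ Fintype.card {y // ¬ p y} ≠ 5 := by
      rcases hcomp with h0 | h0
      · omega
      · exact h0
    obtain ⟨y', hy'⟩ := ih (Fintype.card {y // ¬ p y}) (by omega) {y // ¬ p y} rfl (SS A p)
      (SS_comm hc) (SS_even he) hSS hc3.1 hc3.2 (by omega)
    refine ⟨y'.1, ?_⟩
    obtain ⟨q, hq⟩ : ∃ q : β → Prop, ∀ y, q y ↔ y ∈ orb A y'.1 :=
      ⟨fun y => y ∈ orb A y'.1, fun _ => Iff.rfl⟩
    have hq' : Inv A q := by
      intro a ha y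
      rw [hq, hq]
      exact orb_inv A y'.1 a ha y
    have hm' := (peel hc he hcard hn3 hn5 y'.1 hq hq').1
    rw [card_p A y'.1 q hq] at hm'
    have hle : Nat.card (orb (SS A p) y') ≤ Nat.card (orb A y'.1) := by
      refine Nat.card_le_card_of_injective
        (fun z : orb (SS A p) y' => (⟨z.1.1, ?_⟩ : orb A y'.1)) ?_
      · obtain ⟨s, hs, hsz⟩ := z.2
        refine ⟨Perm.subtypeCongr 1 s, mem_SS.mp hs, ?_⟩
        rw [Perm.subtypeCongr.right_apply _ _ y'.2, hsz]
      · intro z z' hzz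
        have h1 : (z.1.1 : β) = z'.1.1 := congrArg (fun w : orb A y'.1 => (w : β)) hzz
        exact Subtype.ext (Subtype.ext h1)
    omega
  · exact ⟨x, by rw [← card_p A x p hp, h4]⟩

theorem conj_props {β : Type} [Fintype β] [DecidableEq β] (B : Subgroup (Perm β)) (τ : Perm β)
    (hc : ∀ a ∈ B, ∀ b ∈ B, a * b = b * a) (he : ∀ a ∈ B, Perm.sign a = 1) :
    (∀ a ∈ B.map (MulAut.conj τ).toMonoidHom, ∀ b ∈ B.map (MulAut.conj τ).toMonoidHom, a * b = b * a) ∧
    (∀ a ∈ B.map (MulAut.conj τ).toMonoidHom, Perm.sign a = 1) ∧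
    Nat.card (B.map (MulAut.conj τ).toMonoidHom) = Nat.card B := by
  refine ⟨?_, ?_, ?_⟩
  · rintro _ ⟨a, ha, rfl⟩ _ ⟨b, hb, rfl⟩
    rw [← map_mul, ← map_mul, hc a ha b hb]
  · rintro _ ⟨a, ha, rfl⟩
    show Perm.sign (τ * a * τ⁻¹) = 1
    rw [Perm.sign_mul, Perm.sign_mul, Perm.sign_inv, he a ha, mul_one]
    exact Int.units_mul_self _
  · exact Subgroup.card_map_of_injective (MulAut.conj τ).injective

theorem orb_conj {β : Type} [Fintype β] [DecidableEq β] (B : Subgroup (Perm β)) (τ : Perm β) (x' z : β) :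
    z ∈ orb (B.map (MulAut.conj τ).toMonoidHom) (τ x') ↔ τ⁻¹ z ∈ orb B x' := by
  constructor
  · rintro ⟨_, ⟨b, hb, rfl⟩, rfl⟩
    refine ⟨b, hb, ?_⟩
    show b x' = τ⁻¹ ((τ * b * τ⁻¹) (τ x'))
    simp
  · rintro ⟨b, hb, h⟩
    refine ⟨_, ⟨b, hb, rfl⟩, ?_⟩
    show (τ * b * τ⁻¹) (τ x') = z
    simp [h]

theorem swap_mem_iff {β : Type} [DecidableEq β] (O : Set β) (a b z : β) (ha : a ∈ O) (hb : b ∈ O) :
    Equiv.swap a b z ∈ O ↔ z ∈ O := by
  by_cases h1 : z = a
  · subst h1
    rw [Equiv.swap_apply_left]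
    exact ⟨fun _ => ha, fun _ => hb⟩
  · by_cases h2 : z = b
    · subst h2
      rw [Equiv.swap_apply_right]
      exact ⟨fun _ => hb, fun _ => ha⟩
    · rw [Equiv.swap_apply_of_ne_of_ne h1 h2]

theorem exists_even_map {β : Type} [Fintype β] [DecidableEq β] (O O' : Set β)
    (hcard : Nat.card O = Nat.card O') (h2 : 2 ≤ Nat.card O) :
    ∃ τ : Perm β, Perm.sign τ = 1 ∧ ∀ y, τ y ∈ O ↔ y ∈ O' := by
  classical
  obtain ⟨e0⟩ : Nonempty ({y // y ∈ O'} ≃ {y // y ∈ O}) := Finite.card_eq.mp hcard.symm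
  have h0 : ∀ y, e0.extendSubtype y ∈ O ↔ y ∈ O' := by
    intro y
    constructor
    · intro hy
      by_contra hn
      exact e0.extendSubtype_not_mem y hn hy
    · intro hy
      exact e0.extendSubtype_mem y hy
  rcases Int.units_eq_one_or (Perm.sign e0.extendSubtype) with h1 | h1
  · exact ⟨_, h1, h0⟩
  · have hnt : Nontrivial O := Finite.one_lt_card_iff_nontrivial.mp (by omega)
    obtain ⟨a, b, hab⟩ := exists_pair_ne O
    refine ⟨Equiv.swap a.1 b.1 * e0.extendSubtype, ?_, ?_⟩
    · rw [Perm.sign_mul, Perm.sign_swap (fun h => hab (Subtype.ext h)), h1]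
      rfl
    · intro y
      rw [← h0 y, Perm.mul_apply]
      exact swap_mem_iff O a.1 b.1 _ a.2 b.2

/-- two even abelian groups of the maximal order are conjugate by an even permutation -/
theorem conj_main : ∀ (n : ℕ) (β : Type) [Fintype β] [DecidableEq β], Fintype.card β = n → n ≠ 5 →
    ∀ (A B : Subgroup (Perm β)), (∀ a ∈ A, ∀ b ∈ A, a * b = b * a) → (∀ a ∈ A, Perm.sign a = 1) →
    Nat.card A = hA n → (∀ a ∈ B, ∀ b ∈ B, a * b = b * a) → (∀ a ∈ B, Perm.sign a = 1) →
    Nat.card B = hA n → ∃ σ : Perm β, Perm.sign σ = 1 ∧ B = A.map (MulAut.conj σ).toMonoidHom := by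
  intro n
  induction n using Nat.strong_induction_on with
  | _ n ih =>
  intro β _ _ hβ hn5 A B hcA heA hcardA hcB heB hcardB
  classical
  rcases Nat.lt_or_ge n 3 with hn | hn3
  · have h1 : hA n = 1 := by interval_cases n <;> rfl
    rw [h1] at hcardA hcardB
    rw [Subgroup.eq_bot_of_card_eq A hcardA, Subgroup.eq_bot_of_card_eq B hcardB]
    exact ⟨1, map_one _, by rw [Subgroup.map_bot]⟩
  · subst hβ
    obtain ⟨x0⟩ : Nonempty β := Fintype.card_pos_iff.mp (by omega)
    -- orbits of the same length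
    have key : ∀ (C : Subgroup (Perm β)), (∀ a ∈ C, ∀ b ∈ C, a * b = b * a) →
        (∀ a ∈ C, Perm.sign a = 1) → Nat.card C = hA (Fintype.card β) →
        ∀ x, (Nat.card (orb C x) = 3 ∨ Nat.card (orb C x) = 4) ∧
          (Nat.card (orb C x) = 4 → Fintype.card β % 3 ≠ 0) := by
      intro C hcC heC hcardC x
      obtain ⟨q, hq⟩ : ∃ q : β → Prop, ∀ y, q y ↔ y ∈ orb C x :=
        ⟨fun y => y ∈ orb C x, fun _ => Iff.rfl⟩
      have hq' : Inv C q := by
        intro a ha y
        rw [hq, hq]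
        exact orb_inv C x a ha y
      have := peel hcC heC hcardC hn3 hn5 x hq hq'
      rw [card_p C x q hq] at this
      exact ⟨this.1, this.2.1⟩
    obtain ⟨x, x', hxx⟩ : ∃ x x', Nat.card (orb A x) = Nat.card (orb B x') := by
      by_cases h3 : Fintype.card β % 3 = 0
      · refine ⟨x0, x0, ?_⟩
        have hA' := key A hcA heA hcardA x0
        have hB' := key B hcB heB hcardB x0
        rcases hA'.1 with h | h
        · rcases hB'.1 with h' | h'
          · rw [h, h']
          · exact absurd h3 (hB'.2 h')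
        · exact absurd h3 (hA'.2 h)
      · obtain ⟨x, hx⟩ := exists_four _ β rfl A hcA heA hcardA hn3 hn5 h3
        obtain ⟨x', hx'⟩ := exists_four _ β rfl B hcB heB hcardB hn3 hn5 h3
        exact ⟨x, x', by rw [hx, hx']⟩
    have hx3 : 2 ≤ Nat.card (orb A x) := by
      rcases (key A hcA heA hcardA x).1 with h | h <;> omega
    obtain ⟨τ, hτs, hτ⟩ := exists_even_map (orb A x) (orb B x') hxx hx3
    obtain ⟨hcB1, heB1, hcardB1'⟩ := conj_props B τ hcB heB
    have hcardB1 : Nat.card (B.map (MulAut.conj τ).toMonoidHom) = hA (Fintype.card β) := by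
      rw [hcardB1', hcardB]
    obtain ⟨B1, hB1⟩ : ∃ B1, B1 = B.map (MulAut.conj τ).toMonoidHom := ⟨_, rfl⟩
    rw [← hB1] at hcB1 heB1 hcardB1
    -- the common orbit
    obtain ⟨p, hp⟩ : ∃ p : β → Prop, ∀ y, p y ↔ y ∈ orb A x :=
      ⟨fun y => y ∈ orb A x, fun _ => Iff.rfl⟩
    have hpB : ∀ y, p y ↔ y ∈ orb B1 (τ x') := by
      intro y
      rw [hp, hB1, orb_conj, ← hτ]
      simp
    have hiA : Inv A p := by
      intro a ha y
      rw [hp, hp]
      exact orb_inv A x a ha y
    have hiB : Inv B1 p := by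
      intro a ha y
      rw [hpB, hpB]
      exact orb_inv B1 (τ x') a ha y
    obtain ⟨hm, -, hcomp, hSSA, hTTA, hsplitA⟩ := peel hcA heA hcardA hn3 hn5 x hp hiA
    obtain ⟨-, -, -, hSSB, hTTB, hsplitB⟩ := peel hcB1 heB1 hcardB1 hn3 hn5 (τ x') hpB hiB
    have hcc : Fintype.card {y // ¬ p y} = Fintype.card β - Fintype.card {y // p y} :=
      Fintype.card_subtype_compl _
    have hmle : Fintype.card {y // p y} ≤ Fintype.card β := Fintype.card_subtype_le _
    -- the complement
    obtain ⟨ρ, hρs, hρ⟩ := ih (Fintype.card {y // ¬ p y}) (by omega) {y // ¬ p y} rfl (by omega)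
      (SS A p) (SS B1 p) (SS_comm hcA) (SS_even heA) hSSA (SS_comm hcB1) (SS_even heB1) hSSB
    -- the orbit
    obtain ⟨e, hes, he⟩ : ∃ e : Perm {y // p y}, Perm.sign e = 1 ∧
        TT B1 p = (TT A p).map (MulAut.conj e).toMonoidHom := by
      have hleA : TT A p ≤ alternatingGroup {y // p y} :=
        fun t ht => Perm.mem_alternatingGroup.mpr (TT_even heA t ht)
      have hleB : TT B1 p ≤ alternatingGroup {y // p y} :=
        fun t ht => Perm.mem_alternatingGroup.mpr (TT_even heB1 t ht)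
      have hnt : Nontrivial {y // p y} := Fintype.one_lt_card_iff_nontrivial.mp (by omega)
      have h2 := two_mul_card_alternatingGroup (α := {y // p y})
      rw [Fintype.card_perm] at h2
      rcases hm with h3 | h4
      · have halt : Nat.card (alternatingGroup {y // p y}) = 3 := by
          rw [Nat.card_eq_fintype_card]
          rw [h3] at h2
          have : Nat.factorial 3 = 6 := rfl
          omega
        exact sylow_conj 3 1 _ _ hleA hleB (by rw [hTTA, h3]; rfl) (by rw [hTTB, h3]; rfl)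
          (by rw [halt]; decide)
      · have halt : Nat.card (alternatingGroup {y // p y}) = 12 := by
          rw [Nat.card_eq_fintype_card]
          rw [h4] at h2
          have : Nat.factorial 4 = 24 := rfl
          omega
        exact sylow_conj 2 2 _ _ hleA hleB (by rw [hTTA, h4]; rfl) (by rw [hTTB, h4]; rfl)
          (by rw [halt]; decide)
    -- glue
    have hB1A : ∀ b, b ∈ B1 ↔ (Perm.subtypeCongr e ρ)⁻¹ * b * Perm.subtypeCongr e ρ ∈ A := by
      intro b
      rw [mem_iff_split hiB hsplitB, mem_iff_split hiA hsplitA]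
      constructor
      · rintro ⟨t', ht', s', hs', rfl⟩
        rw [he, mem_map_conj] at ht'
        rw [hρ, mem_map_conj] at hs'
        refine ⟨_, ht', _, hs', ?_⟩
        rw [congr_inv, congr_mul, congr_mul]
      · rintro ⟨t, ht, s, hs, hEq⟩
        refine ⟨e * t * e⁻¹, ?_, ρ * s * ρ⁻¹, ?_, ?_⟩
        · rw [he]
          exact ⟨t, ht, rfl⟩
        · rw [hρ]
          exact ⟨s, hs, rfl⟩
        · have : b = Perm.subtypeCongr e ρ * (Perm.subtypeCongr t s) * (Perm.subtypeCongr e ρ)⁻¹ := by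
            rw [← hEq]
            group
          rw [this, congr_inv, congr_mul, congr_mul]
    refine ⟨τ⁻¹ * Perm.subtypeCongr e ρ, ?_, ?_⟩
    · rw [Perm.sign_mul, Perm.sign_inv, hτs, Perm.sign_subtypeCongr, hes, hρs]
      rfl
    · ext y
      rw [mem_map_conj]
      have h1 : y ∈ B ↔ τ * y * τ⁻¹ ∈ B1 := by
        rw [hB1, mem_map_conj]
        constructor
        · intro hy
          convert hy using 1
          group
        · intro hy
          convert hy using 1
          group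
      rw [h1, hB1A]
      constructor
      · intro hy
        convert hy using 1
        group
      · intro hy
        convert hy using 1
        group

/-- the statement for subgroups of `alternatingGroup (Fin n)` -/
theorem conj_alt (n : ℕ) (A B : Subgroup (alternatingGroup (Fin n)))
    (hA' : IsMulCommutative A) (hB' : IsMulCommutative B)
    (hAmax : ∀ C : Subgroup (alternatingGroup (Fin n)), IsMulCommutative C → Nat.card C ≤ Nat.card A)
    (hBmax : ∀ C : Subgroup (alternatingGroup (Fin n)), IsMulCommutative C → Nat.card C ≤ Nat.card B) :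
    ∃ g : alternatingGroup (Fin n), B = MulAut.conj g • A := by
  obtain ⟨C0, hC0, hC0card⟩ := exists_alt_card_hA n
  have hcA : Nat.card A = hA n :=
    le_antisymm (card_le_hA_subgroup n A hA') (hC0card ▸ hAmax C0 hC0)
  have hcB : Nat.card B = hA n :=
    le_antisymm (card_le_hA_subgroup n B hB') (hC0card ▸ hBmax C0 hC0)
  have props : ∀ (H : Subgroup (alternatingGroup (Fin n))), IsMulCommutative H → Nat.card H = hA n →
      (∀ a ∈ H.map (alternatingGroup (Fin n)).subtype, ∀ b ∈ H.map (alternatingGroup (Fin n)).subtype,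
        a * b = b * a) ∧
      (∀ a ∈ H.map (alternatingGroup (Fin n)).subtype, Perm.sign a = 1) ∧
      Nat.card (H.map (alternatingGroup (Fin n)).subtype) = hA n ∧
      H.map (alternatingGroup (Fin n)).subtype ≤ alternatingGroup (Fin n) := by
    intro H hH hHc
    refine ⟨?_, ?_, ?_, ?_⟩
    · rintro _ ⟨a, ha, rfl⟩ _ ⟨b, hb, rfl⟩
      have h1 := congrArg Subtype.val (mul_comm' (⟨a, ha⟩ : H) ⟨b, hb⟩)
      exact congrArg Subtype.val h1
    · rintro _ ⟨a, -, rfl⟩
      exact Perm.mem_alternatingGroup.mp a.2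
    · rw [Subgroup.card_map_of_injective (Subgroup.subtype_injective _), hHc]
    · rintro _ ⟨a, -, rfl⟩
      exact a.2
  have hmem : ∀ (H : Subgroup (alternatingGroup (Fin n))) (y : alternatingGroup (Fin n)),
      (y : Perm (Fin n)) ∈ H.map (alternatingGroup (Fin n)).subtype ↔ y ∈ H := by
    intro H y
    constructor
    · rintro ⟨z, hz, hzy⟩
      have : z = y := Subtype.ext hzy
      rwa [← this]
    · intro hy
      exact ⟨y, hy, rfl⟩
  obtain ⟨hAc, hAe, hAcard, hAle⟩ := props A hA' hcA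
  obtain ⟨hBc, hBe, hBcard, hBle⟩ := props B hB' hcB
  obtain ⟨σ, hσs, hσ⟩ : ∃ σ : Perm (Fin n), Perm.sign σ = 1 ∧
      B.map (alternatingGroup (Fin n)).subtype =
        (A.map (alternatingGroup (Fin n)).subtype).map (MulAut.conj σ).toMonoidHom := by
    by_cases h5 : n = 5
    · subst h5
      have : Fact (Nat.Prime 5) := ⟨by norm_num⟩
      have h60 : Nat.card (alternatingGroup (Fin 5)) = 60 := by
        rw [Nat.card_eq_fintype_card]
        have h2 := two_mul_card_alternatingGroup (α := Fin 5)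
        rw [Fintype.card_perm, Fintype.card_fin] at h2
        have : Nat.factorial 5 = 120 := rfl
        omega
      exact sylow_conj 5 1 _ _ hAle hBle (by rw [hAcard]; rfl) (by rw [hBcard]; rfl)
        (by rw [h60]; decide)
    · exact conj_main n (Fin n) (Fintype.card_fin n) h5 _ _ hAc hAe hAcard hBc hBe hBcard
  refine ⟨⟨σ, Perm.mem_alternatingGroup.mpr hσs⟩, ?_⟩
  ext y
  rw [Subgroup.mem_pointwise_smul_iff_inv_smul_mem, ← hmem B y, hσ, mem_map_conj, ← hmem A]
  rfl

end Cfsg.Agent.H47.AC
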