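import Cfsg.Agent.H47.AbelAlt

/-!
# Numerical facts about `hA` and `hS` used for the equality case
-/

set_option autoImplicit false

namespace Cfsg.Agent.H47

theorem hA_add3 (m : ℕ) (hm : 6 ≤ m) : hA (m + 3) = 3 * hA m := by
  obtain ⟨j, rfl⟩ : ∃ j, m = j + 6 := ⟨m - 6, by omega⟩
  exact hA_add9 j

theorem hS_add3 (m : ℕ) (hm : 2 ≤ m) : hS (m + 3) = 3 * hS m := by
  obtain ⟨j, rfl⟩ : ∃ j, m = j + 2 := ⟨m - 2, by omega⟩
  exact hS_add5 j

theorem hA_pos : ∀ n, 0 < hA n := by
  intro n
  induction n using Nat.strong_induction_on with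
  | _ n ih =>
    rcases Nat.lt_or_ge n 9 with h | h
    · interval_cases n <;> decide
    · obtain ⟨m, rfl⟩ : ∃ m, n = m + 9 := ⟨n - 9, by omega⟩
      rw [hA_add9]
      have := ih (m + 6) (by omega)
      omega

theorem lt_hA : ∀ m, 6 ≤ m → m < hA m := by
  intro m
  induction m using Nat.strong_induction_on with
  | _ m ih =>
    intro hm
    rcases Nat.lt_or_ge m 9 with h | h
    · interval_cases m <;> decide
    · obtain ⟨j, rfl⟩ : ∃ j, m = j + 3 := ⟨m - 3, by omega⟩
      rw [hA_add3 j (by omega)]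
      have := ih j (by omega) (by omega)
      omega

theorem hA_fix (m : ℕ) (h : hA m = m) : m = 1 ∨ m = 3 ∨ m = 4 ∨ m = 5 := by
  rcases Nat.lt_or_ge m 6 with h6 | h6
  · interval_cases m <;> first | omega | (exfalso; revert h; decide)
  · have := lt_hA m h6
    omega

/-- `hA` is strictly increasing from `2` on -/
theorem hA_lt_succ : ∀ b, 2 ≤ b → hA b < hA (b + 1) := by
  intro b
  induction b using Nat.strong_induction_on with
  | _ b ih =>
    intro hb
    rcases Nat.lt_or_ge b 9 with h | h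
    · interval_cases b <;> decide
    · obtain ⟨j, rfl⟩ : ∃ j, b = j + 3 := ⟨b - 3, by omega⟩
      have h1 : j + 3 + 1 = (j + 1) + 3 := by omega
      rw [h1, hA_add3 j (by omega), hA_add3 (j + 1) (by omega)]
      have := ih j (by omega) (by omega)
      omega

theorem hA_five : ∀ b, 1 ≤ b → 5 * hA b < hA (b + 5) := by
  intro b
  induction b using Nat.strong_induction_on with
  | _ b ih =>
    intro hb
    rcases Nat.lt_or_ge b 9 with h | h
    · interval_cases b <;> decide
    · obtain ⟨j, rfl⟩ : ∃ j, b = j + 3 := ⟨b - 3, by omega⟩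
      have h1 : j + 3 + 5 = (j + 5) + 3 := by omega
      rw [h1, hA_add3 j (by omega), hA_add3 (j + 5) (by omega)]
      have := ih j (by omega) (by omega)
      omega

theorem hA_four : ∀ b, 4 * hA b = hA (b + 4) → (b + 4) % 3 ≠ 0 ∧ b ≠ 1 ∧ b ≠ 2 ∧ b ≠ 5 := by
  intro b
  induction b using Nat.strong_induction_on with
  | _ b ih =>
    intro hb
    rcases Nat.lt_or_ge b 9 with h | h
    · interval_cases b <;> first | (exfalso; revert hb; decide) | (refine ⟨?_, ?_, ?_, ?_⟩ <;> omega)
    · obtain ⟨j, rfl⟩ : ∃ j, b = j + 3 := ⟨b - 3, by omega⟩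
      have h1 : j + 3 + 4 = (j + 4) + 3 := by omega
      rw [h1, hA_add3 j (by omega), hA_add3 (j + 4) (by omega)] at hb
      have := ih j (by omega) (by omega)
      refine ⟨?_, ?_, ?_, ?_⟩ <;> omega

theorem hA_three (b : ℕ) (hb : 3 * hA b = hA (b + 3)) : b ≠ 1 ∧ b ≠ 2 ∧ b ≠ 5 := by
  refine ⟨?_, ?_, ?_⟩ <;> (rintro rfl; revert hb; decide)

theorem hS_lt_two_hA : ∀ j, j ≠ 2 → hS j < 2 * hA j := by
  intro j
  induction j using Nat.strong_induction_on with
  | _ j ih =>
    intro hj
    rcases Nat.lt_or_ge j 9 with h | h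
    · interval_cases j <;> first | decide | exact absurd rfl hj
    · obtain ⟨i, rfl⟩ : ∃ i, j = i + 3 := ⟨j - 3, by omega⟩
      rw [hA_add3 i (by omega), hS_add3 i (by omega)]
      have := ih i (by omega) (by omega)
      omega

theorem hS_lt_hA_add_two : ∀ j, 1 ≤ j → hS j < hA (j + 2) := by
  intro j
  induction j using Nat.strong_induction_on with
  | _ j ih =>
    intro hj
    rcases Nat.lt_or_ge j 7 with h | h
    · interval_cases j <;> decide
    · obtain ⟨i, rfl⟩ : ∃ i, j = i + 3 := ⟨j - 3, by omega⟩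
      have h1 : i + 3 + 2 = (i + 2) + 3 := by omega
      rw [h1, hA_add3 (i + 2) (by omega), hS_add3 i (by omega)]
      have := ih i (by omega) (by omega)
      omega

/-- existence: an abelian group of order `hA n` acts faithfully by even permutations -/
theorem Pe_one (β : Type) [DecidableEq β] [Fintype β] : Pe β 1 :=
  ⟨PUnit, inferInstance, inferInstance, 1, fun _ _ _ => Subsingleton.elim _ _, by simp, fun _ => by simp⟩

theorem Pe_five : Pe (Fin 5) 5 := by
  refine ⟨Subgroup.zpowers (finRotate 5), inferInstance, ?_, (Subgroup.zpowers (finRotate 5)).subtype,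
    Subgroup.subtype_injective _, ?_, ?_⟩
  · refine ⟨⟨?_⟩⟩
    rintro ⟨a, ha⟩ ⟨b, hb⟩
    obtain ⟨i, rfl⟩ := Subgroup.mem_zpowers_iff.mp ha
    obtain ⟨j, rfl⟩ := Subgroup.mem_zpowers_iff.mp hb
    apply Subtype.ext
    show finRotate 5 ^ i * finRotate 5 ^ j = finRotate 5 ^ j * finRotate 5 ^ i
    rw [← zpow_add, ← zpow_add, add_comm]
  · rw [Nat.card_zpowers, (isCycle_finRotate_of_le (by norm_num)).orderOf, support_finRotate_of_le (by norm_num)]
    simp
  · rintro ⟨a, ha⟩
    obtain ⟨i, rfl⟩ := Subgroup.mem_zpowers_iff.mp ha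
    show Equiv.Perm.sign (finRotate 5 ^ i) = 1
    rw [map_zpow, sign_finRotate]
    have h1 : ((-1 : ℤˣ)) ^ 4 = 1 := by decide
    rw [h1, one_zpow]

theorem Pe_hA : ∀ n, Pe (Fin n) (hA n) := by
  intro n
  induction n using Nat.strong_induction_on with
  | _ n ih =>
    rcases Nat.lt_or_ge n 9 with h | h
    · interval_cases n
      · exact Pe_empty
      · exact Pe_one _
      · exact Pe_one _
      · exact Pe_three
      · exact Pe_four
      · exact Pe_five
      · have e : Fin 3 ⊕ Fin 3 ≃ Fin 6 := finSumFinEquiv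
        exact (Pe_three.sum Pe_three).congr e
      · have e : Fin 4 ⊕ Fin 3 ≃ Fin 7 := finSumFinEquiv
        exact (Pe_four.sum Pe_three).congr e
      · have e : Fin 4 ⊕ Fin 4 ≃ Fin 8 := finSumFinEquiv
        exact (Pe_four.sum Pe_four).congr e
    · obtain ⟨m, rfl⟩ : ∃ m, n = m + 9 := ⟨n - 9, by omega⟩
      have e : Fin 3 ⊕ Fin (m + 6) ≃ Fin (m + 9) := finSumFinEquiv.trans (finCongr (by omega))
      have := (Pe_three.sum (ih (m + 6) (by omega))).congr e
      rwa [← hA_add9] at this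

theorem exists_alt_card_hA (n : ℕ) :
    ∃ A : Subgroup (alternatingGroup (Fin n)), IsMulCommutative A ∧ Nat.card A = hA n :=
  (Pe_hA n).exists_subgroup

end Cfsg.Agent.H47
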