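import Mathlib

/-!
# Abelian permutation groups: the bound `|K| ≤ hS n`

A finite abelian group acting faithfully on `n` points has order at most the largest
product of the parts of a partition of `n`.
-/

set_option autoImplicit false

namespace Cfsg.Agent.H47

/-- The largest product of the parts of a partition of `n`. -/
def hS : ℕ → ℕ
  | 0 => 1
  | 1 => 1
  | 2 => 2
  | 3 => 3
  | 4 => 4
  | (n+5) => 3 * hS (n+2)

theorem hS_add5 (n : ℕ) : hS (n+5) = 3 * hS (n+2) := by rw [hS]

theorem hS_pos : ∀ n, 0 < hS n := by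
  intro n
  induction n using Nat.strong_induction_on with
  | _ n ih =>
    rcases Nat.lt_or_ge n 5 with h | h
    · interval_cases n <;> decide
    · obtain ⟨m, rfl⟩ : ∃ m, n = m + 5 := ⟨n - 5, by omega⟩
      rw [hS_add5]
      have := ih (m+2) (by omega)
      omega

theorem le_hS : ∀ n, n ≤ hS n := by
  intro n
  induction n using Nat.strong_induction_on with
  | _ n ih =>
    rcases Nat.lt_or_ge n 5 with h | h
    · interval_cases n <;> decide
    · obtain ⟨m, rfl⟩ : ∃ m, n = m + 5 := ⟨n - 5, by omega⟩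
      rw [hS_add5]
      have := ih (m+2) (by omega)
      omega

theorem hS_mul_le : ∀ s a b : ℕ, a + b = s → hS a * hS b ≤ hS (a + b) := by
  intro s
  induction s using Nat.strong_induction_on with
  | _ s ih =>
    intro a b hab
    rcases Nat.lt_or_ge a 5 with ha | ha
    · rcases Nat.lt_or_ge b 5 with hb | hb
      · interval_cases a <;> interval_cases b <;> decide
      · obtain ⟨m, rfl⟩ : ∃ m, b = m + 5 := ⟨b - 5, by omega⟩
        have h1 : a + (m + 5) = (a + m) + 5 := by omega
        have h2 : a + m + 2 = a + (m + 2) := by omega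
        rw [h1, hS_add5, hS_add5, h2]
        have := ih (a + (m+2)) (by omega) a (m+2) rfl
        nlinarith
    · obtain ⟨m, rfl⟩ : ∃ m, a = m + 5 := ⟨a - 5, by omega⟩
      have h1 : (m + 5) + b = (m + b) + 5 := by omega
      have h2 : m + b + 2 = (m + 2) + b := by omega
      rw [h1, hS_add5, hS_add5, h2]
      have := ih ((m+2) + b) (by omega) (m+2) b rfl
      nlinarith

theorem hS_three_mul (k : ℕ) : hS (3 * k) = 3 ^ k := by
  induction k using Nat.strong_induction_on with
  | _ k ih =>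
    rcases Nat.lt_or_ge k 2 with h | h
    · interval_cases k <;> decide
    · obtain ⟨m, rfl⟩ : ∃ m, k = m + 2 := ⟨k - 2, by omega⟩
      have h1 : 3 * (m + 2) = (3 * m + 1) + 5 := by ring
      have h2 : 3 * m + 1 + 2 = 3 * (m + 1) := by ring
      rw [h1, hS_add5, h2, ih (m+1) (by omega)]
      ring

theorem hS_three_mul_add_one (k : ℕ) (hk : 1 ≤ k) : hS (3 * k + 1) = 4 * 3 ^ (k - 1) := by
  induction k using Nat.strong_induction_on with
  | _ k ih =>
    rcases Nat.lt_or_ge k 2 with h | h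
    · interval_cases k; decide
    · obtain ⟨m, rfl⟩ : ∃ m, k = m + 2 := ⟨k - 2, by omega⟩
      have h1 : 3 * (m + 2) + 1 = (3 * m + 2) + 5 := by ring
      have h2 : 3 * m + 2 + 2 = 3 * (m + 1) + 1 := by ring
      rw [h1, hS_add5, h2, ih (m+1) (by omega) (by omega)]
      have h3 : m + 1 - 1 = m := by omega
      have h4 : m + 2 - 1 = m + 1 := by omega
      rw [h3, h4]
      ring

theorem hS_three_mul_add_two (k : ℕ) : hS (3 * k + 2) = 2 * 3 ^ k := by
  induction k with
  | zero => decide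
  | succ m ih =>
    have h1 : 3 * (m + 1) + 2 = (3 * m) + 5 := by ring
    rw [h1, hS_add5, ih]
    ring

open Equiv

/-- A finite abelian group acting faithfully on `n` points has order at most `hS n`. -/
theorem card_le_hS : ∀ (n : ℕ) (β : Type) [Fintype β] [DecidableEq β], Fintype.card β = n →
    ∀ (K : Type) [Group K] [IsMulCommutative K] (φ : K →* Equiv.Perm β), Function.Injective φ →
    Nat.card K ≤ hS n := by
  intro n
  induction n using Nat.strong_induction_on with
  | _ n ih =>
  intro β _ _ hβ K _ _ φ hφ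
  classical
  have : Finite K := Finite.of_injective φ hφ
  rcases Nat.eq_zero_or_pos n with hn | hn
  · subst hn
    have h1 : Nat.card K ≤ Nat.card (Equiv.Perm β) := Nat.card_le_card_of_injective φ hφ
    have h2 : Nat.card (Equiv.Perm β) = 1 := by
      rw [Nat.card_eq_fintype_card, Fintype.card_perm, hβ]
      rfl
    rw [h2] at h1
    exact h1
  · obtain ⟨x⟩ : Nonempty β := Fintype.card_pos_iff.mp (hβ ▸ hn)
    let _ : MulAction K β := MulAction.compHom β φ
    have hsmul : ∀ (k : K) (y : β), k • y = φ k y := fun _ _ => rfl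
    set O : Set β := MulAction.orbit K x with hO
    set S : Subgroup K := MulAction.stabilizer K x with hS'
    have f1 : ∀ s ∈ S, ∀ y ∈ O, φ s y = y := by
      rintro s hs y ⟨k, rfl⟩
      have hsx : φ s x = x := by
        have := MulAction.mem_stabilizer_iff.mp hs
        rwa [hsmul] at this
      show φ s (φ k x) = φ k x
      rw [← Equiv.Perm.mul_apply, ← map_mul, mul_comm' s k, map_mul, Equiv.Perm.mul_apply, hsx]
    have f2 : ∀ (k : K) (y : β), φ k y ∈ O ↔ y ∈ O := by
      intro k y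
      rw [← hsmul, hO, ← MulAction.orbit_eq_iff, MulAction.orbit_smul, MulAction.orbit_eq_iff]
    have : IsMulCommutative S := ⟨⟨fun a b => Subtype.ext (mul_comm' _ _)⟩⟩
    let ψ : S →* Equiv.Perm {y // y ∉ O} :=
      { toFun := fun s => (φ s).subtypePerm (fun y => not_congr (f2 s y))
        map_one' := by
          ext ⟨y, hy⟩
          simp
        map_mul' := fun s t => by
          ext ⟨y, hy⟩
          show φ ((s : K) * (t : K)) y = φ s (φ t y)
          rw [map_mul]
          rfl }
    have hψ : Function.Injective ψ := by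
      rw [injective_iff_map_eq_one]
      intro s hs
      have h1 : φ s = 1 := by
        ext y
        by_cases hy : y ∈ O
        · simpa using f1 s s.2 y hy
        · have := congrArg (fun σ : Equiv.Perm {y // y ∉ O} => (σ ⟨y, hy⟩ : β)) hs
          simpa [ψ] using this
      have h2 : (s : K) = 1 := hφ (h1.trans (map_one φ).symm)
      exact Subtype.ext h2
    -- cardinalities
    have hm1 : Nat.card O = Fintype.card {y // y ∈ O} := Nat.card_eq_fintype_card
    have hmpos : 0 < Fintype.card {y // y ∈ O} :=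
      Fintype.card_pos_iff.mpr ⟨⟨x, MulAction.mem_orbit_self x⟩⟩
    have hmle : Fintype.card {y // y ∈ O} ≤ n := hβ ▸ Fintype.card_subtype_le _
    have hT : Fintype.card {y // y ∉ O} = n - Fintype.card {y // y ∈ O} := by
      rw [Fintype.card_subtype_compl, hβ]
    have hih := ih (n - Fintype.card {y // y ∈ O}) (by omega) {y // y ∉ O} hT S ψ hψ
    have hcard : Nat.card K = Fintype.card {y // y ∈ O} * Nat.card S := by
      rw [Subgroup.card_eq_card_quotient_mul_card_subgroup S, ← hm1]
      congr 1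
      exact (Nat.card_congr (MulAction.orbitEquivQuotientStabilizer K x)).symm
    rw [hcard]
    calc Fintype.card {y // y ∈ O} * Nat.card S
        ≤ hS (Fintype.card {y // y ∈ O}) * hS (n - Fintype.card {y // y ∈ O}) :=
          Nat.mul_le_mul (le_hS _) hih
      _ ≤ hS (Fintype.card {y // y ∈ O} + (n - Fintype.card {y // y ∈ O})) := hS_mul_le _ _ _ rfl
      _ = hS n := by congr 1; omega


/-- some abelian group of order `c` acts faithfully on `β` -/
def Ps (β : Type*) (c : ℕ) : Prop :=
  ∃ (K : Type) (_ : Group K) (_ : IsMulCommutative K) (φ : K →* Equiv.Perm β),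
    Function.Injective φ ∧ Nat.card K = c

/-- some abelian group of order `c` acts faithfully on `β` by even permutations -/
def Pe (β : Type*) [DecidableEq β] [Fintype β] (c : ℕ) : Prop :=
  ∃ (K : Type) (_ : Group K) (_ : IsMulCommutative K) (φ : K →* Equiv.Perm β),
    Function.Injective φ ∧ Nat.card K = c ∧ ∀ k, Equiv.Perm.sign (φ k) = 1

theorem Pe.toPs {β : Type*} [DecidableEq β] [Fintype β] {c : ℕ} (h : Pe β c) : Ps β c := by
  obtain ⟨K, i1, i2, φ, h1, h2, -⟩ := h
  exact ⟨K, i1, i2, φ, h1, h2⟩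

theorem prod_isMulCommutative (K K' : Type*) [Group K] [Group K'] [IsMulCommutative K] [IsMulCommutative K'] :
    IsMulCommutative (K × K') :=
  ⟨⟨fun a b => Prod.ext (mul_comm' _ _) (mul_comm' _ _)⟩⟩

theorem Ps.sum {α β : Type*} {c d : ℕ} (h : Ps α c) (h' : Ps β d) : Ps (α ⊕ β) (c * d) := by
  obtain ⟨K, i1, i2, φ, h1, h2⟩ := h
  obtain ⟨K', i1', i2', φ', h1', h2'⟩ := h'
  refine ⟨K × K', inferInstance, prod_isMulCommutative K K', (Equiv.Perm.sumCongrHom α β).comp (φ.prodMap φ'), ?_, ?_⟩
  · exact Equiv.Perm.sumCongrHom_injective.comp (Prod.map_injective.mpr ⟨h1, h1'⟩)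
  · rw [Nat.card_prod, h2, h2']

theorem Pe.sum {α β : Type*} [DecidableEq α] [Fintype α] [DecidableEq β] [Fintype β] {c d : ℕ}
    (h : Pe α c) (h' : Pe β d) : Pe (α ⊕ β) (c * d) := by
  obtain ⟨K, i1, i2, φ, h1, h2, h3⟩ := h
  obtain ⟨K', i1', i2', φ', h1', h2', h3'⟩ := h'
  refine ⟨K × K', inferInstance, prod_isMulCommutative K K', (Equiv.Perm.sumCongrHom α β).comp (φ.prodMap φ'), ?_, ?_, ?_⟩
  · exact Equiv.Perm.sumCongrHom_injective.comp (Prod.map_injective.mpr ⟨h1, h1'⟩)
  · rw [Nat.card_prod, h2, h2']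
  · rintro ⟨k, k'⟩
    show Equiv.Perm.sign (Equiv.sumCongr (φ k) (φ' k')) = 1
    rw [Equiv.Perm.sign_sumCongr, h3, h3', mul_one]

theorem Ps.congr {α β : Type*} {c : ℕ} (e : α ≃ β) (h : Ps α c) : Ps β c := by
  obtain ⟨K, i1, i2, φ, h1, h2⟩ := h
  exact ⟨K, i1, i2, e.permCongrHom.toMonoidHom.comp φ, e.permCongrHom.injective.comp h1, h2⟩

theorem Pe.congr {α β : Type*} [DecidableEq α] [Fintype α] [DecidableEq β] [Fintype β] {c : ℕ}
    (e : α ≃ β) (h : Pe α c) : Pe β c := by
  obtain ⟨K, i1, i2, φ, h1, h2, h3⟩ := h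
  refine ⟨K, i1, i2, e.permCongrHom.toMonoidHom.comp φ, e.permCongrHom.injective.comp h1, h2, ?_⟩
  intro k
  show Equiv.Perm.sign (e.permCongr (φ k)) = 1
  rw [Equiv.Perm.sign_permCongr, h3]

theorem Ps.exists_subgroup {β : Type*} {c : ℕ} (h : Ps β c) :
    ∃ A : Subgroup (Equiv.Perm β), IsMulCommutative A ∧ Nat.card A = c := by
  obtain ⟨K, i1, i2, φ, h1, h2⟩ := h
  refine ⟨φ.range, ?_, ?_⟩
  · refine ⟨⟨?_⟩⟩
    rintro ⟨_, a, rfl⟩ ⟨_, b, rfl⟩
    apply Subtype.ext
    show φ a * φ b = φ b * φ a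
    rw [← map_mul, ← map_mul, mul_comm']
  · rw [← h2]
    exact (Nat.card_congr (Equiv.ofInjective φ h1)).symm

theorem Pe.exists_subgroup {β : Type*} [DecidableEq β] [Fintype β] {c : ℕ} (h : Pe β c) :
    ∃ A : Subgroup (alternatingGroup β), IsMulCommutative A ∧ Nat.card A = c := by
  obtain ⟨K, i1, i2, φ, h1, h2, h3⟩ := h
  let φ' : K →* alternatingGroup β := φ.codRestrict (alternatingGroup β)
    (fun k => Equiv.Perm.mem_alternatingGroup.mpr (h3 k))
  have h1' : Function.Injective φ' := by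
    intro a b hab
    exact h1 (congrArg Subtype.val hab)
  refine ⟨φ'.range, ?_, ?_⟩
  · refine ⟨⟨?_⟩⟩
    rintro ⟨_, a, rfl⟩ ⟨_, b, rfl⟩
    apply Subtype.ext
    show φ' a * φ' b = φ' b * φ' a
    rw [← map_mul, ← map_mul, mul_comm']
  · rw [← h2]
    exact (Nat.card_congr (Equiv.ofInjective φ' h1')).symm

theorem Pe_empty : Pe (Fin 0) 1 :=
  ⟨PUnit, inferInstance, inferInstance, 1, fun _ _ _ => Subsingleton.elim _ _, by simp, fun _ => by simp⟩

/-- cyclic group generated by the `n`-cycle -/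
theorem Ps_cyc (n : ℕ) (hn : 2 ≤ n) : Ps (Fin n) n := by
  refine ⟨Subgroup.zpowers (finRotate n), inferInstance, ?_, (Subgroup.zpowers (finRotate n)).subtype,
    Subgroup.subtype_injective _, ?_⟩
  · refine ⟨⟨?_⟩⟩
    rintro ⟨a, ha⟩ ⟨b, hb⟩
    obtain ⟨i, rfl⟩ := Subgroup.mem_zpowers_iff.mp ha
    obtain ⟨j, rfl⟩ := Subgroup.mem_zpowers_iff.mp hb
    apply Subtype.ext
    show finRotate n ^ i * finRotate n ^ j = finRotate n ^ j * finRotate n ^ i
    rw [← zpow_add, ← zpow_add, add_comm]
  · rw [Nat.card_zpowers, (isCycle_finRotate_of_le hn).orderOf, support_finRotate_of_le hn]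
    simp

theorem Pe_three : Pe (Fin 3) 3 := by
  refine ⟨Subgroup.zpowers (finRotate 3), inferInstance, ?_, (Subgroup.zpowers (finRotate 3)).subtype,
    Subgroup.subtype_injective _, ?_, ?_⟩
  · refine ⟨⟨?_⟩⟩
    rintro ⟨a, ha⟩ ⟨b, hb⟩
    obtain ⟨i, rfl⟩ := Subgroup.mem_zpowers_iff.mp ha
    obtain ⟨j, rfl⟩ := Subgroup.mem_zpowers_iff.mp hb
    apply Subtype.ext
    show finRotate 3 ^ i * finRotate 3 ^ j = finRotate 3 ^ j * finRotate 3 ^ i
    rw [← zpow_add, ← zpow_add, add_comm]
  · rw [Nat.card_zpowers, (isCycle_finRotate_of_le (by norm_num)).orderOf, support_finRotate_of_le (by norm_num)]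
    simp
  · rintro ⟨a, ha⟩
    obtain ⟨i, rfl⟩ := Subgroup.mem_zpowers_iff.mp ha
    show Equiv.Perm.sign (finRotate 3 ^ i) = 1
    rw [map_zpow, sign_finRotate]
    simp

theorem Pe_four : Pe (Fin 4) 4 := by
  have h4 : Nat.card (Fin 4) = 4 := by simp
  refine ⟨alternatingGroup.kleinFour (Fin 4), inferInstance, ?_,
    (alternatingGroup (Fin 4)).subtype.comp (alternatingGroup.kleinFour (Fin 4)).subtype,
    (Subgroup.subtype_injective _).comp (Subgroup.subtype_injective _), ?_, ?_⟩
  · have := alternatingGroup.kleinFour_isKleinFour h4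
    exact IsKleinFour.isMulCommutative
  · exact alternatingGroup.kleinFour_card_of_card_eq_four h4
  · rintro ⟨⟨a, ha⟩, hb⟩
    exact Equiv.Perm.mem_alternatingGroup.mp ha


theorem Pe_three_mul (k : ℕ) : Pe (Fin (3 * k)) (3 ^ k) := by
  induction k with
  | zero => exact Pe_empty
  | succ k ih =>
    have e : Fin (3 * k) ⊕ Fin 3 ≃ Fin (3 * (k + 1)) := finSumFinEquiv.trans (finCongr (by ring))
    have := (ih.sum Pe_three).congr e
    rwa [← pow_succ] at this

/-- upper bound for abelian subgroups of `Perm (Fin n)` -/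
theorem card_le_hS_subgroup (n : ℕ) (A : Subgroup (Equiv.Perm (Fin n))) (hA : IsMulCommutative A) :
    Nat.card A ≤ hS n :=
  card_le_hS n (Fin n) (Fintype.card_fin n) A A.subtype (Subgroup.subtype_injective _)

end Cfsg.Agent.H47
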