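import Mathlib
import Cfsg.Agent.H86.AltSix
import Cfsg.Agent.H38.PGroupBasic

set_option autoImplicit false

namespace Cfsg.Agent.H47.AutA6

open Subgroup

variable {G : Type*} [Group G] [Finite G]

theorem sylow_card {p k m : ℕ} [Fact p.Prime] (h : Nat.card G = p ^ k * m) (hm : ¬ p ∣ m)
    (P : Sylow p G) : Nat.card (P : Subgroup G) = p ^ k := by
  have hp : p.Prime := Fact.out
  have hm0 : m ≠ 0 := by rintro rfl; exact hm (dvd_zero p)
  rw [Sylow.card_eq_multiplicity, h, Nat.factorization_mul (pow_ne_zero k hp.ne_zero) hm0]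
  simp [hp.factorization_self, Nat.factorization_eq_zero_of_not_dvd hm]

omit [Finite G] in
/-- elements of odd order lie in a normal subgroup of index 4 -/
theorem mem_of_odd (N : Subgroup G) [N.Normal] (hidx : N.index = 4) (c : G)
    (hc : Odd (orderOf c)) : c ∈ N := by
  have h4 : c ^ 4 ∈ N := hidx ▸ N.pow_index_mem c
  have h2 : (2 : ℕ).Coprime (orderOf c) := Nat.coprime_two_left.mpr hc
  have hcop : (4 : ℕ).Coprime (orderOf c) := by
    have := Nat.Coprime.pow_left 2 h2
    simpa using this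
  obtain ⟨m, hm⟩ := exists_pow_eq_self_of_coprime hcop
  rw [← hm]; exact N.pow_mem h4 m

theorem key (N : Subgroup G) [N.Normal] (hN : Nat.card N = 360) (hidx : N.index = 4)
    (hord : ∀ n ∈ N, orderOf n = 1 ∨ orderOf n = 2 ∨ orderOf n = 3 ∨ orderOf n = 4 ∨ orderOf n = 5)
    (t r : G) (ht : t ∈ N) (hr : r ∈ N) (h2 : orderOf t = 2) (hinv : t * r * t⁻¹ = r⁻¹)
    (p a q b m m' : ℕ) [hp : Fact p.Prime] [hq : Fact q.Prime] (hpq : p ≠ q) (hrp : orderOf r = p)
    (hNp : Nat.card N = p ^ a * m) (hpm : ¬ p ∣ m)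
    (hGp : Nat.card G = p ^ a * m') (hpm' : ¬ p ∣ m')
    (h45 : 45 = p ^ a * q ^ b)
    (hab : ∀ (P : Sylow p N) (x y : P), x * y = y * x)
    (hno : ∀ z : G, z ≠ 1 → z * t = t * z → z * r ≠ r * z) :
    ∃ j, 8 ∣ j ∧ 0 < j ∧ j < p ^ a ∧ Nat.card G = Nat.card (Sylow p G) * (p ^ a * j) := by
  classical
  have htt : t * t = 1 := by rw [← pow_two, ← h2, pow_orderOf_eq_one]
  have htinv : t⁻¹ = t := inv_eq_of_mul_eq_one_left htt
  have hr1 : r ≠ 1 := by
    intro h; rw [h, orderOf_one] at hrp; exact hp.out.ne_one hrp.symm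
  obtain ⟨C, hCdef⟩ : ∃ C : Subgroup G, C = centralizer ({r} : Set G) := ⟨_, rfl⟩
  have hmemC : ∀ c : G, c ∈ C ↔ c * r = r * c := fun c => by
    rw [hCdef]; exact mem_centralizer_singleton_iff
  have hrC : r ∈ C := (hmemC r).2 rfl
  -- t normalizes C
  have hconjC : ∀ c : G, c ∈ C ↔ t * c * t⁻¹ ∈ C := by
    intro c
    rw [hmemC, hmemC]
    have h1 : Commute (t * c * t⁻¹) (t * r * t⁻¹) ↔ Commute c r := Commute.conj_iff t
    rw [hinv, Commute.inv_right_iff] at h1
    exact h1.symm
  -- |C| odd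
  have hCodd : Odd (Nat.card C) := by
    let f : Function.End C := fun c => ⟨t * c * t⁻¹, (hconjC c).1 c.2⟩
    have hf : f ^ 2 ^ 1 = 1 := by
      rw [pow_one, pow_two]
      funext c
      apply Subtype.ext
      show t * (t * (c : G) * t⁻¹) * t⁻¹ = c
      rw [htinv]
      calc t * (t * (c : G) * t) * t = (t * t) * c * (t * t) := by group
        _ = c := by rw [htt, one_mul, mul_one]
    have hfix : Function.fixedPoints f = {1} := by
      ext c
      rw [Function.mem_fixedPoints, Function.IsFixedPt, Set.mem_singleton_iff]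
      constructor
      · intro hc
        by_contra hc1
        have hc' : t * (c : G) * t⁻¹ = c := congrArg Subtype.val hc
        have h3 : (c : G) * t = t * c := by
          calc (c : G) * t = (t * c * t⁻¹) * t := by rw [hc']
            _ = t * c := by group
        exact hno c (fun h => hc1 (Subtype.ext h)) h3 ((hmemC c).1 c.2)
      · rintro rfl
        apply Subtype.ext
        show t * 1 * t⁻¹ = 1
        group
    have _ : Fintype C := Fintype.ofFinite C
    have hmod := Equiv.Perm.card_fixedPoints_modEq (p := 2) (n := 1) hf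
    rw [Fintype.card_eq_nat_card, Fintype.card_eq_nat_card] at hmod
    have h1 : Nat.card (Function.fixedPoints f) = 1 := by
      rw [hfix]; simp
    rw [h1] at hmod
    exact Nat.odd_iff.mpr hmod
  have hCN : C ≤ N := by
    intro c hc
    apply mem_of_odd N hidx
    have : orderOf c ∣ Nat.card C := by
      have := orderOf_dvd_natCard (⟨c, hc⟩ : C)
      rwa [Subgroup.orderOf_mk] at this
    exact Odd.of_dvd_nat hCodd this
  have hC45 : Nat.card C ∣ 45 := by
    have h1 : Nat.card C ∣ 8 * 45 := by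
      have := Subgroup.card_dvd_of_le hCN
      rwa [hN] at this
    have h2 : (Nat.card C).Coprime 8 := by
      have : (Nat.card C).Coprime 2 := Nat.coprime_two_right.mpr hCodd
      exact Nat.Coprime.pow_right 3 this
    exact Nat.Coprime.dvd_of_dvd_mul_left h2 h1
  -- no element of order q in C
  have hqC : ¬ q ∣ Nat.card C := by
    intro hdiv
    obtain ⟨x, hx⟩ := exists_prime_orderOf_dvd_card' (G := C) q hdiv
    have hxr : Commute (x : G) r := (hmemC x).1 x.2
    have hcop : (orderOf (x : G)).Coprime (orderOf r) := by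
      rw [Subgroup.orderOf_coe, hx, hrp]
      exact (Nat.coprime_primes hq.out hp.out).mpr (Ne.symm hpq)
    have ho := hxr.orderOf_mul_eq_mul_orderOf_of_coprime hcop
    rw [Subgroup.orderOf_coe, hx, hrp] at ho
    have hmem : (x : G) * r ∈ N := N.mul_mem (hCN x.2) hr
    have h6 : 6 ≤ q * p := by
      have hq2 := hq.out.two_le
      have hp2 := hp.out.two_le
      rcases Nat.lt_or_ge q 3 with h | h
      · have hq' : q = 2 := by omega
        have hp3 : 3 ≤ p := by
          rcases Nat.lt_or_ge p 3 with h' | h'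
          · exfalso; apply hpq; omega
          · exact h'
        subst hq'; omega
      · nlinarith
    rcases hord _ hmem with h | h | h | h | h <;> omega
  have hCdvd : Nat.card C ∣ p ^ a := by
    have h1 : (Nat.card C).Coprime (q ^ b) := by
      apply Nat.Coprime.pow_right
      rw [Nat.coprime_comm]; exact (Nat.Prime.coprime_iff_not_dvd hq.out).mpr hqC
    rw [h45] at hC45
    exact Nat.Coprime.dvd_of_dvd_mul_right h1 hC45
  -- Sylow p-subgroup of N through r
  have hrN : orderOf (⟨r, hr⟩ : N) = p := by rw [Subgroup.orderOf_mk]; exact hrp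
  have hpg : IsPGroup p (zpowers (⟨r, hr⟩ : N)) :=
    IsPGroup.of_card (n := 1) (by rw [Nat.card_zpowers, hrN, pow_one])
  obtain ⟨P, hP⟩ := hpg.exists_le_sylow
  have hPcard : Nat.card (P : Subgroup N) = p ^ a := sylow_card hNp hpm P
  have hrP : (⟨r, hr⟩ : N) ∈ (P : Subgroup N) := hP (mem_zpowers _)
  obtain ⟨P', hP'def⟩ : ∃ P' : Subgroup G, P' = (P : Subgroup N).map N.subtype := ⟨_, rfl⟩
  have hP'card : Nat.card P' = p ^ a := by
    rw [hP'def, Subgroup.card_map_of_injective N.subtype_injective, hPcard]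
  have hP'C : P' ≤ C := by
    rw [hP'def]
    rintro _ ⟨x, hx, rfl⟩
    rw [hmemC]
    have h1 := hab P ⟨x, hx⟩ ⟨⟨r, hr⟩, hrP⟩
    have h' := congrArg (fun y : P => ((y : N) : G)) h1
    simpa using h'
  have hCP' : P' = C := Subgroup.eq_of_le_of_card_ge hP'C
    (by rw [hP'card]; exact Nat.le_of_dvd (pow_pos hp.out.pos a) hCdvd)
  have hCcard : Nat.card C = p ^ a := by rw [← hCP', hP'card]
  -- Frattini
  obtain ⟨M, hMdef⟩ : ∃ M : Subgroup G, M = normalizer (C : Set G) := ⟨_, rfl⟩
  have hfr : M ⊔ N = ⊤ := by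
    have h1 := Sylow.normalizer_sup_eq_top P
    rw [← hP'def, hCP', ← hMdef] at h1
    exact h1
  have hrel : N.relIndex M = 4 := by
    rw [← relIndex_sup_right M N, hfr, relIndex_top_right, hidx]
  have hCM : C ≤ M := by rw [hMdef]; exact le_normalizer
  have htM : t ∈ M := by
    rw [hMdef, mem_normalizer_iff]; exact hconjC
  have hcardM : Nat.card M = 4 * Nat.card (N.subgroupOf M) := by
    rw [← hrel, Subgroup.relIndex, Subgroup.index_mul_card]
  have hCsub : Nat.card (C.subgroupOf M) = p ^ a := by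
    rw [Nat.card_congr (Subgroup.subgroupOfEquivOfLe hCM).toEquiv, hCcard]
  have h2p : 2 * p ^ a ∣ Nat.card (N.subgroupOf M) := by
    have hd1 : p ^ a ∣ Nat.card (N.subgroupOf M) := by
      have hle : C.subgroupOf M ≤ N.subgroupOf M := fun x hx => hCN hx
      have := Subgroup.card_dvd_of_le hle
      rwa [hCsub] at this
    have hd2 : 2 ∣ Nat.card (N.subgroupOf M) := by
      have ho : orderOf (⟨⟨t, htM⟩, ht⟩ : N.subgroupOf M) = 2 := by
        rw [← h2, ← Subgroup.orderOf_coe, ← Subgroup.orderOf_coe]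
      rw [← ho]; exact orderOf_dvd_natCard _
    have hcop : (2 : ℕ).Coprime (p ^ a) := by
      rw [← hCcard]; exact Nat.coprime_two_left.mpr hCodd
    exact hcop.mul_dvd_of_dvd_of_dvd hd2 hd1
  have h8 : 8 * p ^ a ∣ Nat.card M := by
    rw [hcardM]
    obtain ⟨k, hk⟩ := h2p
    exact ⟨k, by rw [hk]; ring⟩
  -- orbit-stabilizer for M acting on r
  let _inst : MulAction M G := MulAction.compHom G ((MulAut.conj : G →* MulAut G).comp M.subtype)
  have hsmul : ∀ (m : M) (g : G), m • g = (m : G) * g * (m : G)⁻¹ := fun m g => rfl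
  have hstab : MulAction.stabilizer M r = C.subgroupOf M := by
    ext m
    rw [MulAction.mem_stabilizer_iff, hsmul, Subgroup.mem_subgroupOf, hmemC]
    constructor
    · intro h
      calc (m : G) * r = ((m : G) * r * (m : G)⁻¹) * m := by group
        _ = r * m := by rw [h]
    · intro h; rw [h]; group
  have horb : MulAction.orbit M r ⊆ (C : Set G) \ {1} := by
    rintro _ ⟨m, rfl⟩
    show m • r ∈ _
    rw [hsmul]
    refine ⟨?_, ?_⟩
    · have hm : (m : G) ∈ normalizer (C : Set G) := hMdef ▸ m.2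
      exact (mem_normalizer_iff.1 hm r).1 hrC
    · intro h
      rw [Set.mem_singleton_iff] at h
      apply hr1
      have h3 : r = (m : G)⁻¹ * ((m : G) * r * (m : G)⁻¹) * m := by group
      rw [h3, h]; group
  obtain ⟨j, hj⟩ : ∃ j : ℕ, j = (MulAction.orbit M r).ncard := ⟨_, rfl⟩
  have hjpos : 0 < j := by
    rw [hj, Set.ncard_pos (Set.toFinite _)]; exact ⟨r, MulAction.mem_orbit_self r⟩
  have hjlt : j < p ^ a := by
    have h1 : j ≤ ((C : Set G) \ {1}).ncard := hj ▸ Set.ncard_le_ncard horb (Set.toFinite _)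
    have h2 : ((C : Set G) \ {1}).ncard = Nat.card C - 1 := by
      rw [Set.ncard_sdiff_singleton_of_mem (C.one_mem)]
      rfl
    rw [h2, hCcard] at h1
    have : 0 < p ^ a := pow_pos hp.out.pos a
    omega
  have hMj : Nat.card M = j * p ^ a := by
    have h1 := MulAction.index_stabilizer M r
    have h2 := (MulAction.stabilizer M r).index_mul_card
    rw [h1, hstab, hCsub, ← hj] at h2
    exact h2.symm
  have h8j : 8 ∣ j := by
    rw [hMj] at h8
    exact (Nat.mul_dvd_mul_iff_right (pow_pos hp.out.pos a)).1 h8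
  -- Sylow in G
  have hCp : IsPGroup p C := IsPGroup.of_card hCcard
  obtain ⟨Q, hQ⟩ := hCp.exists_le_sylow
  have hQcard : Nat.card (Q : Subgroup G) = p ^ a := sylow_card hGp hpm' Q
  have hCQ : C = Q := Subgroup.eq_of_le_of_card_ge hQ (by rw [hQcard, hCcard])
  have hcount := Sylow.card_eq_index_normalizer Q
  have hQM : normalizer (Q : Set G) = M := by rw [hMdef, hCQ]; rfl
  rw [hQM] at hcount
  refine ⟨j, h8j, hjpos, hjlt, ?_⟩
  rw [hcount, mul_comm (p ^ a) j, ← hMj]
  exact (Subgroup.index_mul_card _).symm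

theorem odd_case (N : Subgroup G) [N.Normal] (hN : Nat.card N = 360) (hidx : N.index = 4)
    (hord : ∀ n ∈ N, orderOf n = 1 ∨ orderOf n = 2 ∨ orderOf n = 3 ∨ orderOf n = 4 ∨ orderOf n = 5)
    (t r : G) (ht : t ∈ N) (hr : r ∈ N) (h2 : orderOf t = 2) (hinv : t * r * t⁻¹ = r⁻¹)
    (hp : orderOf r = 3 ∨ orderOf r = 5) :
    ∃ z : G, z ≠ 1 ∧ z * t = t * z ∧ z * r = r * z := by
  by_contra hno
  push Not at hno
  have hG : Nat.card G = 1440 := by rw [← N.index_mul_card, hidx, hN]
  have _ : Fact (Nat.Prime 3) := ⟨Nat.prime_three⟩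
  have _ : Fact (Nat.Prime 5) := ⟨Nat.prime_five⟩
  rcases hp with h3 | h5
  · have hab : ∀ (P : Sylow 3 N) (x y : P), x * y = y * x := by
      intro P x y
      have hPc : Nat.card (P : Subgroup N) = 3 ^ 2 :=
        sylow_card (m := 40) (by rw [hN]; norm_num) (by norm_num) P
      have hc : IsMulCommutative (P : Subgroup N) :=
        IsPGroup.isMulCommutative_of_card_eq_prime_sq hPc
      exact hc.is_comm.comm x y
    obtain ⟨j, h8, hpos, hlt, hcard⟩ := key N hN hidx hord t r ht hr h2 hinv 3 2 5 1 40 160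
      (by norm_num) h3 (by rw [hN]; norm_num) (by norm_num) (by rw [hG]; norm_num) (by norm_num) (by norm_num) hab hno
    have hj : j = 8 := by omega
    subst hj
    rw [hG] at hcard
    have h20 : Nat.card (Sylow 3 G) = 20 := by omega
    have hmod := card_sylow_modEq_one 3 G
    rw [h20] at hmod
    exact absurd hmod (by decide)
  · have hab : ∀ (P : Sylow 5 N) (x y : P), x * y = y * x := by
      intro P x y
      have hPc : Nat.card (P : Subgroup N) = 5 ^ 1 :=
        sylow_card (m := 72) (by rw [hN]; norm_num) (by norm_num) P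
      rw [pow_one] at hPc
      have hcyc : IsCyclic (P : Subgroup N) := isCyclic_of_prime_card hPc
      obtain ⟨g, hg⟩ := hcyc.exists_generator
      obtain ⟨i, rfl⟩ := Subgroup.mem_zpowers_iff.mp (hg x)
      obtain ⟨k, rfl⟩ := Subgroup.mem_zpowers_iff.mp (hg y)
      exact (Commute.zpow_zpow_self g i k).eq
    obtain ⟨j, h8, hpos, hlt, hcard⟩ := key N hN hidx hord t r ht hr h2 hinv 5 1 3 2 72 288
      (by norm_num) h5 (by rw [hN]; norm_num) (by norm_num) (by rw [hG]; norm_num) (by norm_num) (by norm_num) hab hno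
    omega

/-- two involutions of `N` are centralized by a common nontrivial element of `G` -/
theorem exists_comm (N : Subgroup G) [N.Normal] (hN : Nat.card N = 360) (hidx : N.index = 4)
    (hord : ∀ n ∈ N, orderOf n = 1 ∨ orderOf n = 2 ∨ orderOf n = 3 ∨ orderOf n = 4 ∨ orderOf n = 5)
    (t t' : G) (ht : t ∈ N) (ht' : t' ∈ N) (h2 : orderOf t = 2) (h2' : orderOf t' = 2) :
    ∃ z : G, z ≠ 1 ∧ z * t = t * z ∧ z * t' = t' * z := by
  have htt : t * t = 1 := by rw [← pow_two, ← h2, pow_orderOf_eq_one]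
  have htt' : t' * t' = 1 := by rw [← pow_two, ← h2', pow_orderOf_eq_one]
  have htinv : t⁻¹ = t := inv_eq_of_mul_eq_one_left htt
  have htinv' : t'⁻¹ = t' := inv_eq_of_mul_eq_one_left htt'
  obtain ⟨r, hrdef⟩ : ∃ r : G, r = t * t' := ⟨_, rfl⟩
  have hrN : r ∈ N := hrdef ▸ N.mul_mem ht ht'
  have hinv : t * r * t⁻¹ = r⁻¹ := by
    rw [hrdef, mul_inv_rev, htinv, htinv']
    calc t * (t * t') * t = (t * t) * t' * t := by group
      _ = t' * t := by rw [htt, one_mul]
  have ht'eq : t' = t * r := by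
    rw [hrdef, ← mul_assoc, htt, one_mul]
  -- commuting with t and r implies commuting with t'
  have hcomm : ∀ z : G, z * t = t * z → z * r = r * z → z * t' = t' * z := by
    intro z h1 h2
    rw [ht'eq, ← mul_assoc, h1, mul_assoc, h2, ← mul_assoc]
  -- even case
  have heven : ∀ k : ℕ, r ^ (2 * k) = 1 → r ^ k ≠ 1 →
      ∃ z : G, z ≠ 1 ∧ z * t = t * z ∧ z * t' = t' * z := by
    intro k hk hk1
    have hzz : r ^ k * r ^ k = 1 := by rw [← pow_add, ← two_mul, hk]
    have hzinv : (r ^ k)⁻¹ = r ^ k := inv_eq_of_mul_eq_one_left hzz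
    have hconj : t * r ^ k * t⁻¹ = r ^ k := by
      have h1 : t * r ^ k * t⁻¹ = (t * r * t⁻¹) ^ k := (conj_pow).symm
      rw [h1, hinv, inv_pow, hzinv]
    have hzt : r ^ k * t = t * r ^ k := by
      calc r ^ k * t = (t * r ^ k * t⁻¹) * t := by rw [hconj]
        _ = t * r ^ k := by group
    refine ⟨r ^ k, hk1, hzt, hcomm _ hzt ?_⟩
    exact ((Commute.refl r).pow_left k).eq
  rcases hord r hrN with h | h | h | h | h
  · -- r = 1
    have hr1 : r = 1 := orderOf_eq_one_iff.mp h
    have : t' = t := by rw [ht'eq, hr1, mul_one]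
    refine ⟨t, ?_, rfl, by rw [this]⟩
    intro h1; rw [h1, orderOf_one] at h2; exact absurd h2 (by norm_num)
  · apply heven 1
    · rw [mul_one, ← h]; exact pow_orderOf_eq_one r
    · rw [pow_one]; intro h1; rw [h1, orderOf_one] at h; exact absurd h (by norm_num)
  · obtain ⟨z, hz1, hzt, hzr⟩ := odd_case N hN hidx hord t r ht hrN h2 hinv (Or.inl h)
    exact ⟨z, hz1, hzt, hcomm z hzt hzr⟩
  · apply heven 2
    · rw [show 2 * 2 = 4 by norm_num, ← h]; exact pow_orderOf_eq_one r
    · intro h1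
      have := orderOf_dvd_of_pow_eq_one h1
      rw [h] at this; exact absurd this (by norm_num)
  · obtain ⟨z, hz1, hzt, hzr⟩ := odd_case N hN hidx hord t r ht hrN h2 hinv (Or.inr h)
    exact ⟨z, hz1, hzt, hcomm z hzt hzr⟩

open scoped Pointwise in
/-- In a group with a normal subgroup of index 4 isomorphic to `A₆`, any two Sylow 2-subgroups
meet nontrivially. -/
theorem main (N : Subgroup G) [N.Normal] (e : N ≃* alternatingGroup (Fin 6)) (hidx : N.index = 4)
    (H : Sylow 2 G) (x : G) : (H : Subgroup G) ⊓ MulAut.conj x • (H : Subgroup G) ≠ ⊥ := by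
  classical
  have hN : Nat.card N = 360 := by
    rw [Nat.card_congr e.toEquiv, Nat.card_eq_fintype_card]
    have h := two_mul_card_alternatingGroup (α := Fin 6)
    rw [Fintype.card_perm, Fintype.card_fin] at h
    have h6 : Nat.factorial 6 = 720 := by decide
    omega
  have hord : ∀ n ∈ N, orderOf n = 1 ∨ orderOf n = 2 ∨ orderOf n = 3 ∨ orderOf n = 4 ∨
      orderOf n = 5 := by
    intro n hn
    have h := Cfsg.Agent.H86.altSix_orderOf (e ⟨n, hn⟩)
    rwa [MulEquiv.orderOf_eq, Subgroup.orderOf_mk] at h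
  have hG : Nat.card G = 1440 := by rw [← N.index_mul_card, hidx, hN]
  have hHcard : Nat.card (H : Subgroup G) = 2 ^ 5 :=
    sylow_card (m := 45) (by rw [hG]; norm_num) (by norm_num) H
  -- `N ∩ H` is a nontrivial normal subgroup of `H`
  have hK : N.subgroupOf (H : Subgroup G) ≠ ⊥ := by
    intro hbot
    have h1 : (N.subgroupOf (H : Subgroup G)).index * Nat.card (N.subgroupOf (H : Subgroup G)) =
        Nat.card (H : Subgroup G) := Subgroup.index_mul_card _
    rw [hbot, Subgroup.card_bot, mul_one, hHcard] at h1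
    have h2 : N.relIndex (H : Subgroup G) ∣ N.index := Subgroup.relIndex_dvd_index_of_normal N H
    rw [hidx, Subgroup.relIndex, hbot, h1] at h2
    norm_num at h2
  obtain ⟨z, hzK, hzc, hz1⟩ := Cfsg.Agent.H38.exists_mem_center_of_normal_ne_bot H.isPGroup'
    (N.subgroupOf (H : Subgroup G)) hK
  obtain ⟨Z, hZdef⟩ : ∃ Z : Subgroup (H : Subgroup G),
      Z = N.subgroupOf (H : Subgroup G) ⊓ Subgroup.center (H : Subgroup G) := ⟨_, rfl⟩
  have hzZ : z ∈ Z := hZdef ▸ ⟨hzK, hzc⟩
  have hZ2 : 2 ∣ Nat.card Z := by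
    obtain ⟨k, hk⟩ := IsPGroup.iff_card.mp (H.isPGroup'.to_subgroup Z)
    rcases Nat.eq_zero_or_pos k with h0 | h0
    · exfalso
      rw [h0, pow_zero] at hk
      have hZb : Z = ⊥ := Subgroup.card_eq_one.mp hk
      rw [hZb] at hzZ; exact hz1 (Subgroup.mem_bot.mp hzZ)
    · rw [hk]; exact dvd_pow_self 2 (by omega)
  obtain ⟨t0, ht0⟩ := exists_prime_orderOf_dvd_card' (G := Z) 2 hZ2
  have ht0mem : (t0 : (H : Subgroup G)) ∈
      N.subgroupOf (H : Subgroup G) ⊓ Subgroup.center (H : Subgroup G) := hZdef ▸ t0.2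
  obtain ⟨t, htdef⟩ : ∃ t : G, t = ((t0 : (H : Subgroup G)) : G) := ⟨_, rfl⟩
  have h2 : orderOf t = 2 := by rw [htdef, Subgroup.orderOf_coe, Subgroup.orderOf_coe, ht0]
  have htN : t ∈ N := by rw [htdef]; exact ht0mem.1
  have htc : ∀ h ∈ (H : Subgroup G), h * t = t * h := by
    intro h hh
    have h3 := Subgroup.mem_center_iff.mp ht0mem.2 ⟨h, hh⟩
    rw [htdef]
    exact congrArg Subtype.val h3
  -- the centralizer of `t` is `H`
  obtain ⟨Ct, hCt⟩ : ∃ Ct : Subgroup G, Ct = centralizer ({t} : Set G) := ⟨_, rfl⟩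
  have hmemCt : ∀ c : G, c ∈ Ct ↔ c * t = t * c := fun c => by
    rw [hCt]; exact mem_centralizer_singleton_iff
  have hHCt : (H : Subgroup G) ≤ Ct := fun h hh => (hmemCt h).2 (htc h hh)
  have hnodiv : ∀ p : ℕ, p.Prime → (p = 3 ∨ p = 5) → ¬ p ∣ Nat.card Ct := by
    intro p hp hp35 hdiv
    have _ : Fact p.Prime := ⟨hp⟩
    obtain ⟨c, hc⟩ := exists_prime_orderOf_dvd_card' (G := Ct) p hdiv
    have hcN : (c : G) ∈ N := by
      apply mem_of_odd N hidx
      rw [Subgroup.orderOf_coe, hc]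
      rcases hp35 with rfl | rfl <;> decide
    have hcomm : Commute (c : G) t := (hmemCt c).1 c.2
    have hcop : (orderOf (c : G)).Coprime (orderOf t) := by
      rw [Subgroup.orderOf_coe, hc, h2]
      rcases hp35 with rfl | rfl <;> decide
    have ho := hcomm.orderOf_mul_eq_mul_orderOf_of_coprime hcop
    rw [Subgroup.orderOf_coe, hc, h2] at ho
    have hmem : (c : G) * t ∈ N := N.mul_mem hcN htN
    rcases hp35 with rfl | rfl <;> rcases hord _ hmem with h | h | h | h | h <;> omega
  have hCtcard : Nat.card Ct ∣ 32 := by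
    have h1 : Nat.card Ct ∣ 32 * 45 := by
      have := Subgroup.card_subgroup_dvd_card Ct
      rwa [hG] at this
    have h3 : (Nat.card Ct).Coprime 3 := by
      rw [Nat.coprime_comm]
      exact (Nat.Prime.coprime_iff_not_dvd Nat.prime_three).mpr
        (hnodiv 3 Nat.prime_three (Or.inl rfl))
    have h5 : (Nat.card Ct).Coprime 5 := by
      rw [Nat.coprime_comm]
      exact (Nat.Prime.coprime_iff_not_dvd Nat.prime_five).mpr
        (hnodiv 5 Nat.prime_five (Or.inr rfl))
    have h45 : (Nat.card Ct).Coprime (3 ^ 2 * 5) :=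
      Nat.Coprime.mul_right (Nat.Coprime.pow_right 2 h3) h5
    exact Nat.Coprime.dvd_of_dvd_mul_right h45 h1
  have hHeq : (H : Subgroup G) = Ct := Subgroup.eq_of_le_of_card_ge hHCt
    (by rw [hHcard]; exact Nat.le_of_dvd (by norm_num) hCtcard)
  have ht'N : x * t * x⁻¹ ∈ N := Subgroup.Normal.conj_mem inferInstance t htN x
  have h2' : orderOf (x * t * x⁻¹) = 2 := by
    rw [← MulAut.conj_apply, MulEquiv.orderOf_eq, h2]
  obtain ⟨w, hw1, hwt, hwt'⟩ := exists_comm N hN hidx hord t (x * t * x⁻¹) htN ht'N h2 h2'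
  intro hbot
  have hmem : w ∈ (H : Subgroup G) ⊓ MulAut.conj x • (H : Subgroup G) := by
    refine Subgroup.mem_inf.mpr ⟨?_, ?_⟩
    · rw [hHeq]; exact (hmemCt w).2 hwt
    · rw [Subgroup.mem_pointwise_smul_iff_inv_smul_mem, MulAut.smul_def, MulAut.conj_inv_apply,
        hHeq, hmemCt]
      calc x⁻¹ * w * x * t = x⁻¹ * (w * (x * t * x⁻¹)) * x := by group
        _ = x⁻¹ * ((x * t * x⁻¹) * w) * x := by rw [hwt']
        _ = t * (x⁻¹ * w * x) := by group
  rw [hbot] at hmem
  exact hw1 (Subgroup.mem_bot.mp hmem)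

end Cfsg.Agent.H47.AutA6
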