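import Mathlib
import Cfsg.Agent.H28.ESSimple
import Cfsg.Agent.H27.Rad
import Cfsg.Agent.H72.Subn
import Cfsg.Agent.S0213
import Cfsg.Agent.H92.QuatDirect
import Cfsg.Agent.H47.J2A5
import Cfsg.Agent.H26.ConjSwap
import Cfsg.Agent.H26.ES32
import Cfsg.Agent.H5.Involutions

set_option autoImplicit false

/-!
# Core lemmas for S3313 (Hall-Janko involution pattern): setup, centralizer orders,
the count of `t`-conjugates commuting with `z`, and the fibre decomposition of `a(z)`.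
-/

namespace Cfsg.Agent.H47.J2Core

open Cfsg.Agent.H92
open scoped Pointwise

variable {G : Type*} [Group G]

theorem genFitting_eq_pCore (C : Type*) [Group C] [Finite C]
    (hex : Cfsg.IsExtraspecial 2 ↥(Cfsg.generalizedFittingSubgroup C)) :
    Cfsg.generalizedFittingSubgroup C = Cfsg.pCore 2 C := by
  have : Fact (Nat.Prime 2) := ⟨Nat.prime_two⟩
  apply le_antisymm
  · exact Cfsg.Agent.H72.le_pCore (Cfsg.Agent.H28.genFitting_normal) hex.1.1
  · exact (Cfsg.Agent.H27.pCore_le_fitting 2).trans Cfsg.Agent.H28.fitting_le_genFitting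

theorem setup [Finite G] (z : G) (hz : orderOf z = 2)
    (hex : Cfsg.IsExtraspecial 2
      ↥(Cfsg.generalizedFittingSubgroup ↥(Subgroup.centralizer ({z} : Set G)))) :
    ESPair ((Cfsg.pCore 2 ↥(Subgroup.centralizer ({z} : Set G))).map
      (Subgroup.centralizer ({z} : Set G)).subtype) z := by
  have hF := genFitting_eq_pCore _ hex
  have := Cfsg.Agent.H72.pCore_normal 2 ↥(Subgroup.centralizer ({z} : Set G))
  have key : ∀ (Q : Subgroup ↥(Subgroup.centralizer ({z} : Set G))),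
      Cfsg.generalizedFittingSubgroup ↥(Subgroup.centralizer ({z} : Set G)) = Q →
      Cfsg.IsExtraspecial 2 ↥Q := by
    rintro Q rfl
    exact hex
  exact Cfsg.Agent.H28.ESS.espair_of_genFitting z hz _ hF (key _ hF)

theorem card_sup_of_normalizes (K Q : Subgroup G) (hKQ : K ⊓ Q = ⊥)
    (hn : ∀ k ∈ K, ∀ q ∈ Q, k * q * k⁻¹ ∈ Q) :
    Nat.card ↥(K ⊔ Q) = Nat.card K * Nat.card Q := by
  have hle : K ≤ Subgroup.normalizer (Q : Set G) := by
    intro k hk
    rw [Subgroup.mem_normalizer_iff]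
    intro q
    constructor
    · exact hn k hk q
    · intro h
      have := hn k⁻¹ (K.inv_mem hk) _ h
      simpa [mul_assoc] using this
  have hcoe : ((K ⊔ Q : Subgroup G) : Set G) = (K : Set G) * (Q : Set G) :=
    Subgroup.coe_mul_of_left_le_normalizer_right K Q hle
  rw [← Nat.card_prod]
  symm
  apply Nat.card_congr
  refine Equiv.ofBijective (fun p : ↥K × ↥Q => (⟨p.1.1 * p.2.1,
    (K ⊔ Q).mul_mem ((le_sup_left : K ≤ K ⊔ Q) p.1.2) ((le_sup_right : Q ≤ K ⊔ Q) p.2.2)⟩ :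
      ↥(K ⊔ Q))) ⟨?_, ?_⟩
  · rintro ⟨⟨k1, hk1⟩, ⟨q1, hq1⟩⟩ ⟨⟨k2, hk2⟩, ⟨q2, hq2⟩⟩ h
    have h' : k1 * q1 = k2 * q2 := congrArg Subtype.val h
    have h1 : k2⁻¹ * k1 = q2 * q1⁻¹ := by
      rw [inv_mul_eq_iff_eq_mul, ← mul_assoc, ← h', mul_assoc, mul_inv_cancel, mul_one]
    have h2 : k2⁻¹ * k1 ∈ K ⊓ Q :=
      ⟨K.mul_mem (K.inv_mem hk2) hk1, h1 ▸ Q.mul_mem hq2 (Q.inv_mem hq1)⟩
    rw [hKQ, Subgroup.mem_bot] at h2
    have h3 : k1 = k2 := by
      rw [inv_mul_eq_one] at h2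
      exact h2.symm
    subst h3
    have h4 : q1 = q2 := mul_left_cancel h'
    subst h4
    rfl
  · rintro ⟨x, hx⟩
    have hx' : x ∈ (K : Set G) * (Q : Set G) := by
      rw [← hcoe]
      exact hx
    obtain ⟨k, hk, q, hq, rfl⟩ := Set.mem_mul.mp hx'
    exact ⟨(⟨k, hk⟩, ⟨q, hq⟩), rfl⟩

theorem orderOf_conj_eq {x y : G} (h : IsConj x y) : orderOf y = orderOf x := by
  obtain ⟨c, hc⟩ := isConj_iff.mp h
  rw [← hc]
  exact (MulAut.conj c).orderOf_eq x

theorem sq_one_of_orderOf {x : G} (h : orderOf x = 2) : x * x = 1 := by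
  have := pow_orderOf_eq_one x
  rwa [h, pow_two] at this

theorem ne_one_of_orderOf {x : G} (h : orderOf x = 2) : x ≠ 1 := by
  rintro rfl
  rw [orderOf_one] at h
  omega

/-- the dihedral lemma -/
theorem comm_of_mem_zpowers {x y u : G} (hx : x * x = 1) (hy : y * y = 1)
    (hu : u ∈ Subgroup.zpowers (x * y)) (hu2 : u * u = 1) : x * u = u * x ∧ y * u = u * y := by
  obtain ⟨k, rfl⟩ := Subgroup.mem_zpowers_iff.mp hu
  have hxi : x⁻¹ = x := inv_eq_of_mul_eq_one_left hx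
  have hyi : y⁻¹ = y := inv_eq_of_mul_eq_one_left hy
  have hui : ((x * y) ^ k)⁻¹ = (x * y) ^ k := inv_eq_of_mul_eq_one_left hu2
  have h1 : x * (x * y) * x⁻¹ = (x * y)⁻¹ := by
    rw [mul_inv_rev, hxi, hyi, ← mul_assoc, hx, one_mul]
  have h2 : y * (x * y) * y⁻¹ = (x * y)⁻¹ := by
    rw [mul_inv_rev, hxi, hyi, mul_assoc, mul_assoc, hy, mul_one]
  have h3 : x * (x * y) ^ k * x⁻¹ = (x * y) ^ k := by
    rw [← conj_zpow, h1, inv_zpow, hui]
  have h4 : y * (x * y) ^ k * y⁻¹ = (x * y) ^ k := by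
    rw [← conj_zpow, h2, inv_zpow, hui]
  exact ⟨mul_inv_eq_iff_eq_mul.mp h3, mul_inv_eq_iff_eq_mul.mp h4⟩

theorem card_Y [Finite G] (z t : G) (hz : orderOf z = 2) (hzt : ¬ IsConj z t)
    (hCz : Nat.card (Subgroup.centralizer ({z} : Set G)) = 1920)
    (hCtc : Nat.card (Subgroup.centralizer ({t} : Set G)) = 240)
    (V B : Subgroup G)
    (hVB : Cfsg.IsInternalDirectProduct V B (Subgroup.centralizer ({t} : Set G)))
    (e : ↥B ≃* alternatingGroup (Fin 5))
    (hBz : ∀ x ∈ B, orderOf x = 2 → IsConj x z)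
    (hCt : ∀ x ∈ Subgroup.centralizer ({t} : Set G), orderOf x = 2 → x ∉ B → IsConj x t) :
    Nat.card {y : G // IsConj t y ∧ y * z = z * y} = 120 := by
  have hM : Nat.card {x : G // IsConj z x ∧ x * t = t * x} = 15 := by
    rw [← Cfsg.Agent.H47.J2A5.a5_inv_card e]
    have hmem : ∀ x : G, IsConj z x → x * t = t * x → x ∈ B := by
      intro x hx hxt
      by_contra hxB
      have hx2 : orderOf x = 2 := by rw [orderOf_conj_eq hx, hz]
      have hxC : x ∈ Subgroup.centralizer ({t} : Set G) :=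
        Subgroup.mem_centralizer_singleton_iff.mpr hxt
      exact hzt (hx.trans (hCt x hxC hx2 hxB))
    apply Nat.card_congr
    exact
      { toFun := fun x => ⟨⟨x.1, hmem x.1 x.2.1 x.2.2⟩, by
          rw [← Subgroup.orderOf_coe]
          show orderOf x.1 = 2
          rw [orderOf_conj_eq x.2.1, hz]⟩
        invFun := fun b => ⟨b.1.1, ⟨(hBz b.1.1 b.1.2 (by
          rw [Subgroup.orderOf_coe]; exact b.2)).symm, by
            exact Subgroup.mem_centralizer_singleton_iff.mp (hVB.2.1 b.1.2)⟩⟩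
        left_inv := fun x => rfl
        right_inv := fun b => rfl }
  have h := Cfsg.Agent.H26.ConjSwap.card_conj_comm_swap z t
  have h1 := Cfsg.Agent.H5.card_conj_mul_card_centralizer z
  have h2 := Cfsg.Agent.H5.card_conj_mul_card_centralizer t
  rw [hM] at h
  rw [hCz] at h1
  rw [hCtc] at h2
  have hpos : 0 < Nat.card G := Nat.card_pos
  generalize Nat.card {x : G // IsConj z x} = cz at h h1
  generalize Nat.card {y : G // IsConj t y} = ct at h h2
  generalize Nat.card {y : G // IsConj t y ∧ y * z = z * y} = N at h ⊢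
  have h3 : ct = 8 * cz := by omega
  subst h3
  have hcz : 0 < cz := by omega
  have h4 : cz * N = cz * 120 := by rw [h]; ring
  exact Nat.eq_of_mul_eq_mul_left hcz h4

theorem card_fiber {α β : Type*} [Finite α] [Finite β] (P : α → Prop) (R : α → β → Prop)
    (n m : ℕ) (hn : Nat.card {a : α // P a} = n)
    (hm : ∀ a, P a → Nat.card {b : β // R a b} = m) :
    Nat.card {p : α × β // P p.1 ∧ R p.1 p.2} = n * m := by
  classical
  have e : {p : α × β // P p.1 ∧ R p.1 p.2} ≃ Σ a : {a : α // P a}, {b : β // R a.1 b} :=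
    { toFun := fun p => ⟨⟨p.1.1, p.2.1⟩, ⟨p.1.2, p.2.2⟩⟩
      invFun := fun q => ⟨(q.1.1, q.2.1), ⟨q.1.2, q.2.2⟩⟩
      left_inv := fun p => rfl
      right_inv := fun q => rfl }
  have : Fintype {a : α // P a} := Fintype.ofFinite _
  rw [Nat.card_congr e, Nat.card_sigma]
  rw [Finset.sum_congr rfl (fun a _ => hm a.1 a.2), Finset.sum_const, Finset.card_univ,
    ← Nat.card_eq_fintype_card, hn, smul_eq_mul]

theorem az_count [Finite G] (z t : G) (hz : orderOf z = 2) (ht : orderOf t = 2)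
    (hzt : ¬ IsConj z t) (Q : Subgroup G)
    (hQz : ∀ x ∈ Q, orderOf x = 2 → IsConj x z)
    (hCz : ∀ x ∈ Subgroup.centralizer ({z} : Set G), orderOf x = 2 → x ∉ Q → IsConj x t)
    (hY : Nat.card {y : G // IsConj t y ∧ y * z = z * y} = 120)
    (hF : ∀ y : G, IsConj t y → y * z = z * y →
      Nat.card {x : G // x ∈ Q ∧ orderOf x = 2 ∧ z ∈ Subgroup.zpowers (x * y)} = 8) :
    Nat.card {p : G × G // IsConj z p.1 ∧ IsConj t p.2 ∧ z ∈ Subgroup.zpowers (p.1 * p.2)}
      = 960 := by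
  have hz2 : z * z = 1 := sq_one_of_orderOf hz
  have key := card_fiber (α := G) (β := G) (fun y => IsConj t y ∧ y * z = z * y)
    (fun y x => x ∈ Q ∧ orderOf x = 2 ∧ z ∈ Subgroup.zpowers (x * y)) 120 8 hY
    (fun y hy => hF y hy.1 hy.2)
  rw [show (960 : ℕ) = 120 * 8 from rfl, ← key]
  apply Nat.card_congr
  refine
    { toFun := fun p => ⟨(p.1.2, p.1.1), ?_⟩
      invFun := fun q => ⟨(q.1.2, q.1.1), ?_⟩
      left_inv := fun p => rfl
      right_inv := fun q => rfl }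
  · obtain ⟨⟨x, y⟩, hx, hy, hzp⟩ := p
    have hx2 : orderOf x = 2 := by rw [orderOf_conj_eq hx, hz]
    have hy2 : orderOf y = 2 := by rw [orderOf_conj_eq hy, ht]
    have hc := comm_of_mem_zpowers (sq_one_of_orderOf hx2) (sq_one_of_orderOf hy2) hzp hz2
    refine ⟨⟨hy, hc.2⟩, ?_, hx2, hzp⟩
    by_contra hxQ
    have hxC : x ∈ Subgroup.centralizer ({z} : Set G) :=
      Subgroup.mem_centralizer_singleton_iff.mpr hc.1
    exact hzt (hx.trans (hCz x hxC hx2 hxQ))
  · obtain ⟨⟨y, x⟩, ⟨hy, hyz⟩, hxQ, hx2, hzp⟩ := q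
    exact ⟨(hQz x hxQ hx2).symm, hy, hzp⟩

theorem card_map_subtype (C : Subgroup G) (P : Subgroup ↥C) :
    Nat.card ↥(P.map C.subtype) = Nat.card ↥P :=
  (Nat.card_congr (P.equivMapOfInjective C.subtype C.subtype_injective).toEquiv).symm

end Cfsg.Agent.H47.J2Core
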