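import Mathlib
import Cfsg.Prelude.Def_Classical

set_option autoImplicit false

open scoped Pointwise

namespace Cfsg.Agent.H47.OPlus

open Matrix

variable {F : Type*} [Field F] {m : ℕ}

/-- The polar form of the hyperbolic quadratic form. -/
def pol (u v : Fin m ⊕ Fin m → F) : F :=
  ∑ i : Fin m, (u (.inl i) * v (.inr i) + u (.inr i) * v (.inl i))

theorem q_add (u v : Fin m ⊕ Fin m → F) :
    Cfsg.quadFormPlus m F (u + v)
      = Cfsg.quadFormPlus m F u + Cfsg.quadFormPlus m F v + pol u v := by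
  unfold Cfsg.quadFormPlus pol
  rw [← Finset.sum_add_distrib, ← Finset.sum_add_distrib]
  refine Finset.sum_congr rfl fun i _ => ?_
  simp only [Pi.add_apply]; ring

theorem q_smul (c : F) (v : Fin m ⊕ Fin m → F) :
    Cfsg.quadFormPlus m F (c • v) = c * c * Cfsg.quadFormPlus m F v := by
  unfold Cfsg.quadFormPlus
  rw [Finset.mul_sum]
  refine Finset.sum_congr rfl fun i _ => ?_
  simp only [Pi.smul_apply, smul_eq_mul]; ring

theorem q_zero : Cfsg.quadFormPlus m F (0 : Fin m ⊕ Fin m → F) = 0 := by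
  unfold Cfsg.quadFormPlus; simp

theorem pol_comm (u v : Fin m ⊕ Fin m → F) : pol u v = pol v u := by
  unfold pol
  refine Finset.sum_congr rfl fun i _ => ?_
  ring

theorem pol_add_left (u u' v : Fin m ⊕ Fin m → F) : pol (u + u') v = pol u v + pol u' v := by
  unfold pol
  rw [← Finset.sum_add_distrib]
  refine Finset.sum_congr rfl fun i _ => ?_
  simp only [Pi.add_apply]; ring

theorem pol_smul_left (c : F) (u v : Fin m ⊕ Fin m → F) : pol (c • u) v = c * pol u v := by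
  unfold pol
  rw [Finset.mul_sum]
  refine Finset.sum_congr rfl fun i _ => ?_
  simp only [Pi.smul_apply, smul_eq_mul]; ring

theorem pol_add_right (u v v' : Fin m ⊕ Fin m → F) : pol u (v + v') = pol u v + pol u v' := by
  rw [pol_comm, pol_add_left, pol_comm v, pol_comm v']

theorem pol_smul_right (c : F) (u v : Fin m ⊕ Fin m → F) : pol u (c • v) = c * pol u v := by
  rw [pol_comm, pol_smul_left, pol_comm]

theorem pol_self (h2 : (2 : F) = 0) (v : Fin m ⊕ Fin m → F) : pol v v = 0 := by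
  unfold pol
  refine Finset.sum_eq_zero fun i _ => ?_
  linear_combination (v (.inl i) * v (.inr i)) * h2

theorem pol_single_inl (x : Fin m ⊕ Fin m → F) (i : Fin m) :
    pol x (Pi.single (Sum.inl i) 1) = x (.inr i) := by
  unfold pol
  rw [Finset.sum_eq_single i]
  · simp
  · intro j _ hj
    simp [hj]
  · intro h; exact absurd (Finset.mem_univ i) h

theorem pol_single_inr (x : Fin m ⊕ Fin m → F) (i : Fin m) :
    pol x (Pi.single (Sum.inr i) 1) = x (.inl i) := by
  unfold pol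
  rw [Finset.sum_eq_single i]
  · simp
  · intro j _ hj
    simp [hj]
  · intro h; exact absurd (Finset.mem_univ i) h

theorem exists_pol_ne (v : Fin m ⊕ Fin m → F) (hv : v ≠ 0) : ∃ x, pol x v ≠ 0 := by
  obtain ⟨j, hj⟩ : ∃ j, v j ≠ 0 := by
    by_contra hcon
    push Not at hcon
    exact hv (funext hcon)
  rcases j with i | i
  · refine ⟨Pi.single (Sum.inr i) 1, ?_⟩
    rw [pol_comm, pol_single_inr]; exact hj
  · refine ⟨Pi.single (Sum.inl i) 1, ?_⟩
    rw [pol_comm, pol_single_inl]; exact hj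


/-- The orthogonal transvection (reflection) in a vector `v`. -/
def refl (v : Fin m ⊕ Fin m → F) : (Fin m ⊕ Fin m → F) →ₗ[F] (Fin m ⊕ Fin m → F) where
  toFun x := x + pol x v • v
  map_add' x y := by
    rw [pol_add_left, add_smul]; abel
  map_smul' c x := by
    simp only [RingHom.id_apply]
    rw [pol_smul_left, smul_add, smul_smul]

theorem refl_apply (v x : Fin m ⊕ Fin m → F) : refl v x = x + pol x v • v := rfl

/-- The Siegel element attached to a pair `u, w`. -/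
def sieg (u w : Fin m ⊕ Fin m → F) : (Fin m ⊕ Fin m → F) →ₗ[F] (Fin m ⊕ Fin m → F) where
  toFun x := x + pol x u • w + pol x w • u
  map_add' x y := by
    rw [pol_add_left, pol_add_left, add_smul, add_smul]; abel
  map_smul' c x := by
    simp only [RingHom.id_apply]
    rw [pol_smul_left, pol_smul_left, smul_add, smul_add, smul_smul, smul_smul]

theorem sieg_apply (u w x : Fin m ⊕ Fin m → F) : sieg u w x = x + pol x u • w + pol x w • u := rfl

theorem vadd_self (h2 : (2 : F) = 0) (x : Fin m ⊕ Fin m → F) : x + x = 0 := by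
  funext j
  simp only [Pi.add_apply, Pi.zero_apply]
  linear_combination (x j) * h2

theorem refl_invol (h2 : (2 : F) = 0) (v x : Fin m ⊕ Fin m → F) : refl v (refl v x) = x := by
  rw [refl_apply, refl_apply, pol_add_left, pol_smul_left, pol_self h2, mul_zero, add_zero,
    add_assoc, ← add_smul]
  have : pol x v + pol x v = 0 := by linear_combination (pol x v) * h2
  rw [this, zero_smul, add_zero]

theorem refl_q (h2 : (2 : F) = 0) (v : Fin m ⊕ Fin m → F) (hv : Cfsg.quadFormPlus m F v = 1)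
    (x : Fin m ⊕ Fin m → F) : Cfsg.quadFormPlus m F (refl v x) = Cfsg.quadFormPlus m F x := by
  rw [refl_apply, q_add, q_smul, pol_smul_right, hv]
  linear_combination (pol x v * pol x v) * h2

theorem sieg_invol (h2 : (2 : F) = 0) (u w : Fin m ⊕ Fin m → F) (huw : pol u w = 0)
    (x : Fin m ⊕ Fin m → F) : sieg u w (sieg u w x) = x := by
  have h1 : pol (sieg u w x) u = pol x u := by
    rw [sieg_apply, pol_add_left, pol_add_left, pol_smul_left, pol_smul_left, pol_self h2,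
      pol_comm w u, huw]; ring
  have h3 : pol (sieg u w x) w = pol x w := by
    rw [sieg_apply, pol_add_left, pol_add_left, pol_smul_left, pol_smul_left, pol_self h2, huw]
    ring
  rw [sieg_apply, h1, h3, sieg_apply]
  funext j
  simp only [Pi.add_apply, Pi.smul_apply, smul_eq_mul]
  linear_combination (pol x u * w j + pol x w * u j) * h2

theorem sieg_q (h2 : (2 : F) = 0) (u w : Fin m ⊕ Fin m → F)
    (hu : Cfsg.quadFormPlus m F u = 0) (hw : Cfsg.quadFormPlus m F w = 0) (huw : pol u w = 0)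
    (x : Fin m ⊕ Fin m → F) : Cfsg.quadFormPlus m F (sieg u w x) = Cfsg.quadFormPlus m F x := by
  rw [sieg_apply, add_assoc, q_add, q_add, q_smul, q_smul, pol_add_right, pol_smul_right,
    pol_smul_right, pol_smul_left, pol_smul_right, hu, hw, pol_comm w u, huw]
  linear_combination (pol x u * pol x w) * h2

/-- A codimension `≥ 2` family of vectors is fixed pointwise by a nontrivial involutive isometry. -/
theorem exists_fix (h2 : (2 : F) = 0) (h01 : ∀ a : F, a = 0 ∨ a = 1)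
    {κ : Type*} [Fintype κ] (s : κ → (Fin m ⊕ Fin m → F)) (hκ : Fintype.card κ + 2 ≤ 2 * m) :
    ∃ T : (Fin m ⊕ Fin m → F) →ₗ[F] (Fin m ⊕ Fin m → F),
      (∀ x, T (T x) = x) ∧ (∀ x, Cfsg.quadFormPlus m F (T x) = Cfsg.quadFormPlus m F x) ∧
      (∃ x, T x ≠ x) ∧ ∀ k, T (s k) = s k := by
  classical
  -- the map `x ↦ (pol x (s k))_k`
  let φ : (Fin m ⊕ Fin m → F) →ₗ[F] (κ → F) :=
    { toFun := fun x k => pol x (s k)
      map_add' := fun x y => by funext k; simp [pol_add_left]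
      map_smul' := fun c x => by funext k; simp [pol_smul_left] }
  have hker : 2 ≤ Module.finrank F (LinearMap.ker φ) := by
    have h1 := LinearMap.finrank_range_add_finrank_ker φ
    have h3 : Module.finrank F (LinearMap.range φ) ≤ Fintype.card κ := by
      have := Submodule.finrank_le (LinearMap.range φ)
      rwa [Module.finrank_fintype_fun_eq_card] at this
    have h4 : Module.finrank F (Fin m ⊕ Fin m → F) = 2 * m := by
      rw [Module.finrank_fintype_fun_eq_card]; simp; ring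
    omega
  have hpos : 0 < Module.finrank F (LinearMap.ker φ) := by omega
  have hone : 1 < Module.finrank F (LinearMap.ker φ) := by omega
  obtain ⟨u, hu0⟩ : ∃ u : LinearMap.ker φ, u ≠ 0 :=
    (Module.finrank_pos_iff_exists_ne_zero (R := F)).mp hpos
  obtain ⟨w, hli⟩ := exists_linearIndependent_pair_of_one_lt_finrank (R := F) hone hu0
  rw [LinearIndependent.pair_iff] at hli
  have hli' : ∀ a b : F, a • (u : Fin m ⊕ Fin m → F) + b • (w : Fin m ⊕ Fin m → F) = 0 →
      a = 0 ∧ b = 0 := by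
    intro a b hab
    apply hli a b
    apply Subtype.ext
    simpa using hab
  have hu : ∀ k, pol (s k) (u : Fin m ⊕ Fin m → F) = 0 := by
    intro k
    have := congrFun (LinearMap.mem_ker.mp u.2) k
    rw [pol_comm]; exact this
  have hw : ∀ k, pol (s k) (w : Fin m ⊕ Fin m → F) = 0 := by
    intro k
    have := congrFun (LinearMap.mem_ker.mp w.2) k
    rw [pol_comm]; exact this
  -- reflections
  have hrefl : ∀ v : Fin m ⊕ Fin m → F, (∀ k, pol (s k) v = 0) → Cfsg.quadFormPlus m F v ≠ 0 →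
      ∃ T : (Fin m ⊕ Fin m → F) →ₗ[F] (Fin m ⊕ Fin m → F),
      (∀ x, T (T x) = x) ∧ (∀ x, Cfsg.quadFormPlus m F (T x) = Cfsg.quadFormPlus m F x) ∧
      (∃ x, T x ≠ x) ∧ ∀ k, T (s k) = s k := by
    intro v hv hq
    have hq1 : Cfsg.quadFormPlus m F v = 1 := (h01 _).resolve_left hq
    have hv0 : v ≠ 0 := by
      rintro rfl
      exact hq q_zero
    refine ⟨refl v, refl_invol h2 v, refl_q h2 v hq1, ?_, ?_⟩
    · obtain ⟨x, hx⟩ := exists_pol_ne v hv0
      refine ⟨x, ?_⟩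
      rw [refl_apply]
      intro hcon
      have h5 : pol x v • v = 0 := by simpa using hcon
      rcases smul_eq_zero.mp h5 with h6 | h6
      · exact hx h6
      · exact hv0 h6
    · intro k
      rw [refl_apply, hv k, zero_smul, add_zero]
  by_cases hqu : Cfsg.quadFormPlus m F (u : Fin m ⊕ Fin m → F) = 0
  swap
  · exact hrefl _ hu hqu
  by_cases hqw : Cfsg.quadFormPlus m F (w : Fin m ⊕ Fin m → F) = 0
  swap
  · exact hrefl _ hw hqw
  by_cases hquw : Cfsg.quadFormPlus m F ((u : Fin m ⊕ Fin m → F) + w) = 0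
  swap
  · refine hrefl _ ?_ hquw
    intro k
    rw [pol_add_right, hu k, hw k, add_zero]
  have huw : pol (u : Fin m ⊕ Fin m → F) w = 0 := by
    have := q_add (u : Fin m ⊕ Fin m → F) w
    rw [hquw, hqu, hqw] at this
    linear_combination -this
  refine ⟨sieg u w, sieg_invol h2 _ _ huw, sieg_q h2 _ _ hqu hqw huw, ?_, ?_⟩
  · have hu0' : (u : Fin m ⊕ Fin m → F) ≠ 0 := by
      intro h
      exact hu0 (Subtype.ext h)
    obtain ⟨x, hx⟩ := exists_pol_ne _ hu0'
    refine ⟨x, ?_⟩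
    rw [sieg_apply]
    intro hcon
    have h5 : pol x (w : Fin m ⊕ Fin m → F) • (u : Fin m ⊕ Fin m → F)
        + pol x (u : Fin m ⊕ Fin m → F) • (w : Fin m ⊕ Fin m → F) = 0 := by
      have : x + (pol x (u : Fin m ⊕ Fin m → F) • (w : Fin m ⊕ Fin m → F)
          + pol x (w : Fin m ⊕ Fin m → F) • (u : Fin m ⊕ Fin m → F)) = x := by
        rw [← add_assoc]; exact hcon
      have h6 := add_eq_left.mp this
      rw [add_comm]; exact h6
    exact hx (hli' _ _ h5).2
  · intro k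
    rw [sieg_apply, hu k, hw k, zero_smul, zero_smul, add_zero, add_zero]


/-- An isometry fixing `e_i` for all `i ≠ i₀` has order dividing `4`. -/
theorem pow_four_of_fix (h2 : (2 : F) = 0) (h01 : ∀ a : F, a = 0 ∨ a = 1) (i₀ : Fin m)
    (T : (Fin m ⊕ Fin m → F) →ₗ[F] (Fin m ⊕ Fin m → F))
    (hQ : ∀ u, Cfsg.quadFormPlus m F (T u) = Cfsg.quadFormPlus m F u)
    (hfix : ∀ i, i ≠ i₀ → T (Pi.single (Sum.inl i) 1) = Pi.single (Sum.inl i) 1) :
    ∀ x, T (T (T (T x))) = x := by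
  classical
  have hB : ∀ u v, pol (T u) (T v) = pol u v := by
    intro u v
    have h := q_add (T u) (T v)
    rw [← map_add, hQ, hQ, hQ, q_add] at h
    linear_combination -h
  have h_inr : ∀ x i, i ≠ i₀ → (T x) (Sum.inr i) = x (Sum.inr i) := by
    intro x i hi
    have h := hB x (Pi.single (Sum.inl i) 1)
    rw [hfix i hi, pol_single_inl, pol_single_inl] at h
    exact h
  have hq1 : ∀ z : Fin m ⊕ Fin m → F, (∀ i, i ≠ i₀ → z (Sum.inr i) = 0) →
      Cfsg.quadFormPlus m F z = z (Sum.inl i₀) * z (Sum.inr i₀) := by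
    intro z hz
    unfold Cfsg.quadFormPlus
    rw [Finset.sum_eq_single i₀]
    · intro j _ hj; rw [hz j hj, mul_zero]
    · intro h; exact absurd (Finset.mem_univ _) h
  have hp1 : ∀ z z' : Fin m ⊕ Fin m → F, (∀ i, i ≠ i₀ → z (Sum.inr i) = 0) →
      (∀ i, i ≠ i₀ → z' (Sum.inr i) = 0) →
      pol z z' = z (Sum.inl i₀) * z' (Sum.inr i₀) + z (Sum.inr i₀) * z' (Sum.inl i₀) := by
    intro z z' hz hz'
    unfold pol
    rw [Finset.sum_eq_single i₀]
    · intro j _ hj; rw [hz j hj, hz' j hj]; ring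
    · intro h; exact absurd (Finset.mem_univ _) h
  have hA : ∀ a : Fin m ⊕ Fin m → F, (∀ i, a (Sum.inr i) = 0) → a (Sum.inl i₀) = 0 →
      T a = a := by
    intro a ha1 ha2
    have hdec : a = ∑ i : Fin m,
        a (Sum.inl i) • (Pi.single (Sum.inl i) (1 : F) : Fin m ⊕ Fin m → F) := by
      funext j
      rw [Finset.sum_apply]
      rcases j with j | j
      · simp [Pi.single_apply]
      · simp [ha1 j]
    calc T a = T (∑ i : Fin m,
          a (Sum.inl i) • (Pi.single (Sum.inl i) (1 : F) : Fin m ⊕ Fin m → F)) := by rw [← hdec]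
      _ = ∑ i : Fin m, a (Sum.inl i) • T (Pi.single (Sum.inl i) (1 : F)) := by
          rw [map_sum]; simp_rw [map_smul]
      _ = ∑ i : Fin m,
          a (Sum.inl i) • (Pi.single (Sum.inl i) (1 : F) : Fin m ⊕ Fin m → F) := by
          refine Finset.sum_congr rfl fun i _ => ?_
          by_cases hi : i = i₀
          · subst hi; rw [ha2, zero_smul, zero_smul]
          · rw [hfix i hi]
      _ = a := hdec.symm
  obtain ⟨w₀, hw₀⟩ : ∃ w : Fin m ⊕ Fin m → F,
      w = Pi.single (Sum.inl i₀) 1 + Pi.single (Sum.inr i₀) 1 := ⟨_, rfl⟩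
  have hw1 : ∀ i, i ≠ i₀ → w₀ (Sum.inr i) = 0 := by intro i hi; simp [hw₀, hi]
  have hwl : w₀ (Sum.inl i₀) = 1 := by simp [hw₀]
  have hwr : w₀ (Sum.inr i₀) = 1 := by simp [hw₀]
  have hTw1 : ∀ i, i ≠ i₀ → (T w₀) (Sum.inr i) = 0 := fun i hi => by
    rw [h_inr _ i hi, hw1 i hi]
  have hTw : (T w₀) (Sum.inl i₀) * (T w₀) (Sum.inr i₀) = 1 := by
    rw [← hq1 _ hTw1, hQ, hq1 _ hw1, hwl, hwr, mul_one]
  have hTwl : (T w₀) (Sum.inl i₀) = 1 := by
    rcases h01 ((T w₀) (Sum.inl i₀)) with h | h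
    · rw [h, zero_mul] at hTw; exact absurd hTw zero_ne_one
    · exact h
  have hTwr : (T w₀) (Sum.inr i₀) = 1 := by rw [hTwl, one_mul] at hTw; exact hTw
  have hs : ∀ z : Fin m ⊕ Fin m → F, (∀ i, i ≠ i₀ → z (Sum.inr i) = 0) →
      (T z) (Sum.inl i₀) + (T z) (Sum.inr i₀) = z (Sum.inl i₀) + z (Sum.inr i₀) := by
    intro z hz
    have hTz : ∀ i, i ≠ i₀ → (T z) (Sum.inr i) = 0 := fun i hi => by
      rw [h_inr _ i hi, hz i hi]
    have e1 := hB z w₀
    rw [hp1 _ _ hTz hTw1, hp1 _ _ hz hw1, hTwl, hTwr, hwl, hwr] at e1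
    linear_combination e1
  have hp : ∀ z : Fin m ⊕ Fin m → F, (∀ i, i ≠ i₀ → z (Sum.inr i) = 0) →
      (T z) (Sum.inl i₀) * (T z) (Sum.inr i₀) = z (Sum.inl i₀) * z (Sum.inr i₀) := by
    intro z hz
    have hTz : ∀ i, i ≠ i₀ → (T z) (Sum.inr i) = 0 := fun i hi => by
      rw [h_inr _ i hi, hz i hi]
    rw [← hq1 _ hTz, hQ, hq1 _ hz]
  intro x
  obtain ⟨y₁, hy₁⟩ : ∃ y, y = T x + x := ⟨_, rfl⟩
  obtain ⟨y₂, hy₂⟩ : ∃ y, y = T y₁ + y₁ := ⟨_, rfl⟩
  obtain ⟨y₃, hy₃⟩ : ∃ y, y = T y₂ + y₂ := ⟨_, rfl⟩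
  have p1 : ∀ i, i ≠ i₀ → y₁ (Sum.inr i) = 0 := by
    intro i hi
    rw [hy₁, Pi.add_apply, h_inr _ i hi]
    linear_combination (x (Sum.inr i)) * h2
  have p1' : ∀ i, i ≠ i₀ → (T y₁) (Sum.inr i) = 0 := fun i hi => by
    rw [h_inr _ i hi, p1 i hi]
  have p2 : ∀ i, i ≠ i₀ → y₂ (Sum.inr i) = 0 := by
    intro i hi
    rw [hy₂, Pi.add_apply, p1' i hi, p1 i hi, add_zero]
  have p2e : y₂ (Sum.inl i₀) = y₂ (Sum.inr i₀) := by
    rw [hy₂, Pi.add_apply, Pi.add_apply]
    have := hs y₁ p1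
    linear_combination this + (y₁ (Sum.inl i₀) - (T y₁) (Sum.inr i₀)) * h2
  have p2' : ∀ i, i ≠ i₀ → (T y₂) (Sum.inr i) = 0 := fun i hi => by
    rw [h_inr _ i hi, p2 i hi]
  have hsum := hs y₂ p2
  have hprod := hp y₂ p2
  have hab : (T y₂) (Sum.inl i₀) = (T y₂) (Sum.inr i₀) := by
    rw [p2e] at hsum
    linear_combination hsum + (y₂ (Sum.inr i₀) - (T y₂) (Sum.inr i₀)) * h2
  have hac : (T y₂) (Sum.inr i₀) = y₂ (Sum.inr i₀) := by
    rw [hab, p2e] at hprod
    rcases h01 ((T y₂) (Sum.inr i₀)) with h | h <;> rcases h01 (y₂ (Sum.inr i₀)) with h' | h'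
    · rw [h, h']
    · rw [h, h'] at hprod; simp at hprod
    · rw [h, h'] at hprod; simp at hprod
    · rw [h, h']
  have p3r : ∀ i, y₃ (Sum.inr i) = 0 := by
    intro i
    by_cases hi : i = i₀
    · subst hi
      rw [hy₃, Pi.add_apply, hac]
      linear_combination (y₂ (Sum.inr i)) * h2
    · rw [hy₃, Pi.add_apply, p2' i hi, p2 i hi, add_zero]
  have p3l : y₃ (Sum.inl i₀) = 0 := by
    rw [hy₃, Pi.add_apply, hab, hac, p2e]
    linear_combination (y₂ (Sum.inr i₀)) * h2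
  have e4 : T y₃ = y₃ := hA y₃ p3r p3l
  have e1 : T x = x + y₁ := by
    rw [hy₁]; funext j; simp only [Pi.add_apply]; linear_combination (-(x j)) * h2
  have e2 : T y₁ = y₁ + y₂ := by
    rw [hy₂]; funext j; simp only [Pi.add_apply]; linear_combination (-(y₁ j)) * h2
  have e3 : T y₂ = y₂ + y₃ := by
    rw [hy₃]; funext j; simp only [Pi.add_apply]; linear_combination (-(y₂ j)) * h2
  simp only [e1, e2, e3, e4, map_add]
  funext j
  simp only [Pi.add_apply]
  linear_combination (2 * y₁ j + 3 * y₂ j + 2 * y₃ j) * h2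


theorem char_two {F : Type*} [Field F] [Fintype F] (hF : Fintype.card F = 2) : (2 : F) = 0 := by
  have := Nat.cast_card_eq_zero F
  rw [hF] at this
  exact_mod_cast this

theorem zero_or_one {F : Type*} [Field F] [Fintype F] (hF : Fintype.card F = 2) (a : F) :
    a = 0 ∨ a = 1 := by
  classical
  by_contra hcon
  push Not at hcon
  have h3 : ({0, 1, a} : Finset F).card = 3 := by
    rw [Finset.card_insert_of_notMem, Finset.card_insert_of_notMem, Finset.card_singleton]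
    · simp only [Finset.mem_singleton]
      exact fun h => hcon.2 h.symm
    · simp only [Finset.mem_insert, Finset.mem_singleton, not_or]
      exact ⟨zero_ne_one, fun h => hcon.1 h.symm⟩
  have := Finset.card_le_univ ({0, 1, a} : Finset F)
  omega

/-- Any two Sylow `2`-subgroups of `O⁺(2m, 2)` (`m ≥ 1`) meet nontrivially. -/
theorem main {F : Type*} [Field F] [Fintype F] (hF : Fintype.card F = 2) {m : ℕ} (hm : 1 ≤ m)
    (H : Sylow 2 (Cfsg.isometryGroup F (Cfsg.quadFormPlus m F)))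
    (x : Cfsg.isometryGroup F (Cfsg.quadFormPlus m F)) :
    (H : Subgroup (Cfsg.isometryGroup F (Cfsg.quadFormPlus m F))) ⊓
      MulAut.conj x • (H : Subgroup (Cfsg.isometryGroup F (Cfsg.quadFormPlus m F))) ≠ ⊥ := by
  classical
  have h2 : (2 : F) = 0 := char_two hF
  have h01 : ∀ a : F, a = 0 ∨ a = 1 := zero_or_one hF
  obtain ⟨i₀⟩ : Nonempty (Fin m) := ⟨⟨0, hm⟩⟩
  have hQ : ∀ (g : Cfsg.isometryGroup F (Cfsg.quadFormPlus m F)) (u : Fin m ⊕ Fin m → F),
      Cfsg.quadFormPlus m F ((g.1 : Matrix (Fin m ⊕ Fin m) (Fin m ⊕ Fin m) F) *ᵥ u)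
        = Cfsg.quadFormPlus m F u := fun g u => g.2 u 0
  -- the pointwise stabiliser of `e_i`, `i ≠ i₀`
  let L : Subgroup (Cfsg.isometryGroup F (Cfsg.quadFormPlus m F)) :=
    { carrier := {g | ∀ i, i ≠ i₀ →
        (g.1 : Matrix (Fin m ⊕ Fin m) (Fin m ⊕ Fin m) F) *ᵥ (Pi.single (Sum.inl i) 1)
          = Pi.single (Sum.inl i) 1}
      mul_mem' := by
        intro a b ha hb i hi
        have : ((a * b).1 : Matrix (Fin m ⊕ Fin m) (Fin m ⊕ Fin m) F)
            = (a.1 : Matrix (Fin m ⊕ Fin m) (Fin m ⊕ Fin m) F) * (b.1 : Matrix _ _ F) := rfl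
        rw [this, ← Matrix.mulVec_mulVec, hb i hi, ha i hi]
      one_mem' := by
        intro i hi
        have : ((1 : Cfsg.isometryGroup F (Cfsg.quadFormPlus m F)).1 :
            Matrix (Fin m ⊕ Fin m) (Fin m ⊕ Fin m) F) = 1 := rfl
        rw [this, Matrix.one_mulVec]
      inv_mem' := by
        intro a ha i hi
        have h1 : ((a⁻¹).1 : Matrix (Fin m ⊕ Fin m) (Fin m ⊕ Fin m) F)
            * (a.1 : Matrix _ _ F) = 1 := by
          have : ((a⁻¹ * a).1 : Matrix (Fin m ⊕ Fin m) (Fin m ⊕ Fin m) F)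
            = ((a⁻¹).1 : Matrix (Fin m ⊕ Fin m) (Fin m ⊕ Fin m) F) * (a.1 : Matrix _ _ F) := rfl
          rw [← this, inv_mul_cancel]; rfl
        have h3 := ha i hi
        calc ((a⁻¹).1 : Matrix (Fin m ⊕ Fin m) (Fin m ⊕ Fin m) F) *ᵥ (Pi.single (Sum.inl i) 1)
            = ((a⁻¹).1 : Matrix (Fin m ⊕ Fin m) (Fin m ⊕ Fin m) F) *ᵥ
                ((a.1 : Matrix (Fin m ⊕ Fin m) (Fin m ⊕ Fin m) F) *ᵥ
                  (Pi.single (Sum.inl i) 1)) := by rw [h3]
          _ = Pi.single (Sum.inl i) 1 := by rw [Matrix.mulVec_mulVec, h1, Matrix.one_mulVec] }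
  have hL2 : IsPGroup 2 L := by
    rintro ⟨g, hg⟩
    refine ⟨2, ?_⟩
    have h4 := pow_four_of_fix h2 h01 i₀
      (Matrix.mulVecLin (g.1 : Matrix (Fin m ⊕ Fin m) (Fin m ⊕ Fin m) F))
      (fun u => by rw [Matrix.mulVecLin_apply]; exact hQ g u)
      (fun i hi => by rw [Matrix.mulVecLin_apply]; exact hg i hi)
    apply Subtype.ext
    apply Subtype.ext
    apply Units.ext
    apply Matrix.mulVec_injective
    funext v
    have h5 := h4 v
    simp only [Matrix.mulVecLin_apply, Matrix.mulVec_mulVec] at h5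
    have h6 : ((((⟨g, hg⟩ : L) ^ 2 ^ 2 : L) : Cfsg.isometryGroup F (Cfsg.quadFormPlus m F)).1 :
        Matrix (Fin m ⊕ Fin m) (Fin m ⊕ Fin m) F)
        = (g.1 : Matrix (Fin m ⊕ Fin m) (Fin m ⊕ Fin m) F) * ((g.1 : Matrix _ _ F)
          * ((g.1 : Matrix _ _ F) * (g.1 : Matrix _ _ F))) := by
      simp [pow_succ, mul_assoc]
    rw [h6, h5]
    simp
  obtain ⟨P, hLP⟩ := hL2.exists_le_sylow
  obtain ⟨z, hz⟩ := MulAction.exists_smul_eq (Cfsg.isometryGroup F (Cfsg.quadFormPlus m F)) P H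
  have hH : (H : Subgroup (Cfsg.isometryGroup F (Cfsg.quadFormPlus m F)))
      = MulAut.conj z • (P : Subgroup _) := by
    rw [← hz, Sylow.coe_subgroup_smul]
  obtain ⟨y, hy⟩ : ∃ y, y = z⁻¹ * x * z := ⟨_, rfl⟩
  -- the family `e_i`, `y e_i`
  let s : {i : Fin m // i ≠ i₀} ⊕ {i : Fin m // i ≠ i₀} → (Fin m ⊕ Fin m → F) :=
    fun k => Sum.elim (fun i => Pi.single (Sum.inl i.1) 1)
      (fun i => (y.1 : Matrix (Fin m ⊕ Fin m) (Fin m ⊕ Fin m) F) *ᵥ (Pi.single (Sum.inl i.1) 1)) k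
  have hcard : Fintype.card ({i : Fin m // i ≠ i₀} ⊕ {i : Fin m // i ≠ i₀}) + 2 ≤ 2 * m := by
    have : Fintype.card {i : Fin m // i ≠ i₀} = m - 1 := by
      rw [Fintype.card_subtype_compl]; simp
    rw [Fintype.card_sum, this]; omega
  obtain ⟨T, hT1, hT2, ⟨x₀, hx₀⟩, hT3⟩ := exists_fix h2 h01 s hcard
  have hMM : LinearMap.toMatrix' T * LinearMap.toMatrix' T = 1 := by
    rw [← LinearMap.toMatrix'_mul, ← LinearMap.toMatrix'_one]
    congr 1
    apply LinearMap.ext
    intro v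
    exact hT1 v
  let gGL : Matrix.GeneralLinearGroup (Fin m ⊕ Fin m) F :=
    ⟨LinearMap.toMatrix' T, LinearMap.toMatrix' T, hMM, hMM⟩
  have hgmem : gGL ∈ Cfsg.isometryGroup F (Cfsg.quadFormPlus m F) := by
    intro u v
    show Cfsg.quadFormPlus m F (LinearMap.toMatrix' T *ᵥ u) = Cfsg.quadFormPlus m F u
    rw [LinearMap.toMatrix'_mulVec]; exact hT2 u
  let g : Cfsg.isometryGroup F (Cfsg.quadFormPlus m F) := ⟨gGL, hgmem⟩
  have hgv : ∀ v, (g.1 : Matrix (Fin m ⊕ Fin m) (Fin m ⊕ Fin m) F) *ᵥ v = T v := by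
    intro v
    show LinearMap.toMatrix' T *ᵥ v = T v
    rw [LinearMap.toMatrix'_mulVec]
  have hg1 : g ≠ 1 := by
    intro h
    apply hx₀
    rw [← hgv, h]
    show (1 : Matrix (Fin m ⊕ Fin m) (Fin m ⊕ Fin m) F) *ᵥ x₀ = x₀
    rw [Matrix.one_mulVec]
  have hgL : g ∈ L := by
    intro i hi
    rw [hgv]
    exact hT3 (Sum.inl ⟨i, hi⟩)
  have hgL' : y⁻¹ * g * y ∈ L := by
    intro i hi
    have e1 : ((y⁻¹ * g * y).1 : Matrix (Fin m ⊕ Fin m) (Fin m ⊕ Fin m) F)
        = ((y⁻¹).1 : Matrix (Fin m ⊕ Fin m) (Fin m ⊕ Fin m) F) * (g.1 : Matrix _ _ F)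
          * (y.1 : Matrix _ _ F) := rfl
    have h1 : ((y⁻¹).1 : Matrix (Fin m ⊕ Fin m) (Fin m ⊕ Fin m) F)
        * (y.1 : Matrix _ _ F) = 1 := by
      have : ((y⁻¹ * y).1 : Matrix (Fin m ⊕ Fin m) (Fin m ⊕ Fin m) F)
        = ((y⁻¹).1 : Matrix (Fin m ⊕ Fin m) (Fin m ⊕ Fin m) F) * (y.1 : Matrix _ _ F) := rfl
      rw [← this, inv_mul_cancel]; rfl
    rw [e1, ← Matrix.mulVec_mulVec, ← Matrix.mulVec_mulVec, hgv]
    have := hT3 (Sum.inr ⟨i, hi⟩)
    simp only [s, Sum.elim_inr] at this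
    rw [this, Matrix.mulVec_mulVec, h1, Matrix.one_mulVec]
  intro hbot
  have hmem : z * g * z⁻¹ ∈ (H : Subgroup (Cfsg.isometryGroup F (Cfsg.quadFormPlus m F))) ⊓
      MulAut.conj x • (H : Subgroup (Cfsg.isometryGroup F (Cfsg.quadFormPlus m F))) := by
    refine Subgroup.mem_inf.mpr ⟨?_, ?_⟩
    · rw [hH, Subgroup.mem_pointwise_smul_iff_inv_smul_mem]
      have : (MulAut.conj z)⁻¹ • (z * g * z⁻¹) = g := by
        simp [MulAut.smul_def, mul_assoc]
      rw [this]
      exact hLP hgL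
    · rw [Subgroup.mem_pointwise_smul_iff_inv_smul_mem, hH,
        Subgroup.mem_pointwise_smul_iff_inv_smul_mem]
      have : (MulAut.conj z)⁻¹ • ((MulAut.conj x)⁻¹ • (z * g * z⁻¹)) = y⁻¹ * g * y := by
        simp [MulAut.smul_def, mul_assoc, hy]
      rw [this]
      exact hLP hgL'
  rw [hbot, Subgroup.mem_bot] at hmem
  apply hg1
  have : g = z⁻¹ * (z * g * z⁻¹) * z := by group
  rw [this, hmem]; group

end Cfsg.Agent.H47.OPlus
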